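import Groth.Agent.Gaga.H976.TM2
import Mathlib.Topology.Sheaves.SheafCondition.Sites
import Mathlib.Topology.Category.TopCat.Opens

/-!
# Modules of finite presentation on a ringed space, elementwise
-/

set_option autoImplicit false

universe u

open CategoryTheory CategoryTheory.Limits Opposite TopologicalSpace

namespace Groth.Agent.Gaga.H976.TM3

open Groth.Agent.Gaga.H976.TM0 Groth.Agent.Gaga.H976.TM1 Groth.Agent.Gaga.H976.TM2

variable {T : TopCat.{u}} {R : Sheaf (Opens.grothendieckTopology T) RingCat.{u}}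

/-- Restriction of ring sections. -/
def rr {U V : Opens T} (h : V ≤ U) : R.obj.obj (op U) →+* R.obj.obj (op V) :=
  (R.obj.map (homOfLE h).op).hom

/-- Restriction of sections of a sheaf of modules. -/
noncomputable def rs (N : SheafOfModules.{u} R) {U V : Opens T} (h : V ≤ U) :
    N.val.obj (op U) →ₛₗ[(R.obj.map (homOfLE h).op).hom] N.val.obj (op V) :=
  N.val.restrictₛₗ (homOfLE h).op

/-- Sections over an object of the slice site. -/
lemma over_obj (N : SheafOfModules.{u} R) (W : Opens T) (Y : (Over W)ᵒᵖ) :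
    ((N.over W).val.obj Y : Type u) = (N.val.obj (op Y.unop.left) : Type u) := rfl

lemma over_smul (N : SheafOfModules.{u} R) (W : Opens T) (Y : (Over W)ᵒᵖ)
    (r : (R.over W).obj.obj Y) (t : (N.over W).val.obj Y) :
    r • t = (show (N.over W).val.obj Y from
      ((show R.obj.obj (op Y.unop.left) from r) • (show N.val.obj (op Y.unop.left) from t))) := rfl

lemma over_res (N : SheafOfModules.{u} R) (W : Opens T) {Y Z : Over W} (g : Z ⟶ Y)
    (t : (N.over W).val.obj (op Y)) :
    (N.over W).val.restrictₛₗ g.op t =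
      (show (N.over W).val.obj (op Z) from
        rs N (leOfHom g.left) (show N.val.obj (op Y.left) from t)) := rfl


lemma rs_rs (N : SheafOfModules.{u} R) {U V W : Opens T} (h : V ≤ U) (h' : W ≤ V)
    (t : N.val.obj (op U)) : rs N h' (rs N h t) = rs N (h'.trans h) t := by
  have := N.val.map_comp_apply (homOfLE h).op (homOfLE h').op t
  exact this.symm

lemma rs_self (N : SheafOfModules.{u} R) {U : Opens T} (h : U ≤ U) (t : N.val.obj (op U)) :
    rs N h t = t := by
  have h1 : (homOfLE h).op = 𝟙 (op U) := rfl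
  change N.val.map (homOfLE h).op t = t
  rw [h1, N.val.map_id]
  rfl

lemma rr_rr {U V W : Opens T} (h : V ≤ U) (h' : W ≤ V) (t : R.obj.obj (op U)) :
    rr h' (rr h t) = rr (h'.trans h) t := by
  have := ConcreteCategory.congr_hom (R.obj.map_comp (homOfLE h).op (homOfLE h').op) t
  exact this.symm

lemma rr_self {U : Opens T} (h : U ≤ U) (t : R.obj.obj (op U)) : rr h t = t := by
  have h1 : (homOfLE h).op = 𝟙 (op U) := rfl
  change R.obj.map (homOfLE h).op t = t
  rw [h1, R.obj.map_id]
  rfl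

lemma rs_smul (N : SheafOfModules.{u} R) {U V : Opens T} (h : V ≤ U) (r : R.obj.obj (op U))
    (t : N.val.obj (op U)) : rs N h (r • t) = rr h r • rs N h t := map_smulₛₗ (rs N h) r t

/-- The sections `s i` over `W` generate `N` over `W`. -/
def LGen (N : SheafOfModules.{u} R) (W : Opens T) {n : ℕ} (s : Fin n → N.val.obj (op W)) : Prop :=
  ∀ (V : Opens T) (hV : V ≤ W) (t : N.val.obj (op V)) (x : T), x ∈ V →
    ∃ (V' : Opens T) (h' : V' ≤ V), x ∈ V' ∧ ∃ c : Fin n → R.obj.obj (op V'),
      rs N h' t = ∑ j, c j • rs N (h'.trans hV) (s j)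

/-- The `r k` are relations between the sections `s i` over `W` and generate all relations. -/
def LRel (N : SheafOfModules.{u} R) (W : Opens T) {n m : ℕ} (s : Fin n → N.val.obj (op W))
    (r : Fin m → Fin n → R.obj.obj (op W)) : Prop :=
  (∀ k, ∑ j, r k j • s j = 0) ∧
  ∀ (V : Opens T) (hV : V ≤ W) (c : Fin n → R.obj.obj (op V)),
    ∑ j, c j • rs N hV (s j) = 0 → ∀ x ∈ V, ∃ (V' : Opens T) (h' : V' ≤ V), x ∈ V' ∧
      ∃ d : Fin m → R.obj.obj (op V'), ∀ j, rr h' (c j) = ∑ k, d k * rr (h'.trans hV) (r k j)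

/-- The section of `N.over W` attached to a section over `W`. -/
noncomputable def toSec (N : SheafOfModules.{u} R) (W : Opens T) (s : N.val.obj (op W)) :
    (N.over W).sections :=
  ⟨fun Y => rs N (leOfHom Y.unop.hom) s, fun {_ _} _ => rs_rs N _ _ s⟩

/-- The value at the terminal object. -/
noncomputable def ofSec (N : SheafOfModules.{u} R) (W : Opens T) (σ : (N.over W).sections) :
    N.val.obj (op W) := sec σ (op (Over.mk (𝟙 W)))

lemma sec_toSec (N : SheafOfModules.{u} R) (W : Opens T) (s : N.val.obj (op W))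
    (Y : (Over W)ᵒᵖ) :
    sec (toSec N W s) Y = (show (N.over W).val.obj Y from rs N (leOfHom Y.unop.hom) s) := rfl

lemma sec_eq (N : SheafOfModules.{u} R) (W : Opens T) (σ : (N.over W).sections)
    (Y : (Over W)ᵒᵖ) :
    sec σ Y = (show (N.over W).val.obj Y from rs N (leOfHom Y.unop.hom) (ofSec N W σ)) := by
  have h := sec_map σ (Over.homMk Y.unop.hom : Y.unop ⟶ Over.mk (𝟙 W)).op
  exact h.symm

/-- The compatible family of ring elements attached to an element over `W`. -/
noncomputable def toRSec (W : Opens T) (r : R.obj.obj (op W)) : RSec (R.over W) :=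
  ⟨fun Y => (show (R.over W).obj.obj Y from rr (leOfHom Y.unop.hom) r),
    fun {_ _} _ => rr_rr _ _ r⟩

/-- The value at the terminal object. -/
noncomputable def ofRSec (W : Opens T) (σ : RSec (R.over W)) : R.obj.obj (op W) :=
  rsec σ (op (Over.mk (𝟙 W)))

lemma rsec_eq (W : Opens T) (σ : RSec (R.over W)) (Y : (Over W)ᵒᵖ) :
    rsec σ Y = (show (R.over W).obj.obj Y from rr (leOfHom Y.unop.hom) (ofRSec W σ)) := by
  have h := rsec_map σ (Over.homMk Y.unop.hom : Y.unop ⟶ Over.mk (𝟙 W)).op
  exact h.symm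

lemma mem_over (W : Opens T) (Y : Over W) (S : Sieve Y) :
    S ∈ ((Opens.grothendieckTopology T).over W) Y ↔
      ∀ x ∈ Y.left, ∃ (V : Opens T) (h : V ≤ Y.left), x ∈ V ∧
        S.arrows (Over.homMk (homOfLE h) : Over.mk (homOfLE h ≫ Y.hom) ⟶ Y) := by
  rw [GrothendieckTopology.mem_over_iff]
  constructor
  · intro h x hx
    obtain ⟨V, f, hf, hxV⟩ := h x hx
    rw [Sieve.overEquiv_iff] at hf
    exact ⟨V, leOfHom f, hxV, hf⟩
  · intro h x hx
    obtain ⟨V, f, hxV, hf⟩ := h x hx
    refine ⟨V, homOfLE f, ?_, hxV⟩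
    rw [Sieve.overEquiv_iff]
    exact hf


lemma lgen_of_gen {N : SheafOfModules.{u} R} {W : Opens T} {I : Type u} [Fintype I]
    (σ : I → (N.over W).sections) (h : Gen σ) {n : ℕ} (e : I ≃ Fin n) :
    LGen N W fun j => ofSec N W (σ (e.symm j)) := by
  intro V hV t x hx
  obtain ⟨S, hS, hS'⟩ := h (Over.mk (homOfLE hV)) t
  rw [mem_over] at hS
  obtain ⟨V', h', hxV', hg⟩ := hS x hx
  obtain ⟨c, hc⟩ := hS' _ hg
  refine ⟨V', h', hxV', fun j => c (e.symm j), ?_⟩
  refine hc.trans ?_
  rw [← Equiv.sum_comp e.symm]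
  refine Finset.sum_congr rfl fun j _ => ?_
  rw [sec_eq]
  rfl

lemma gen_of_lgen {N : SheafOfModules.{u} R} {W : Opens T} {n : ℕ}
    (s : Fin n → N.val.obj (op W)) (h : LGen N W s) :
    Gen (fun j : ULift.{u} (Fin n) => toSec N W (s j.down)) := by
  classical
  intro Y t
  have h1 := fun (x : T) (hx : x ∈ Y.left) => h Y.left (leOfHom Y.hom) t x hx
  choose V' h' hx c hc using h1
  refine ⟨(Sieve.overEquiv Y).symm (Sieve.generate (Presieve.ofArrows (fun x : Y.left => V' x.1 x.2)
    (fun x => homOfLE (h' x.1 x.2)))), ?_, ?_⟩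
  · rw [mem_over]
    intro x hx0
    refine ⟨V' x hx0, h' x hx0, hx x hx0, ?_⟩
    rw [Sieve.overEquiv_symm_iff]
    exact Sieve.le_generate _ _ _ (Presieve.ofArrows.mk (⟨x, hx0⟩ : Y.left))
  · intro Z g hg
    rw [Sieve.overEquiv_symm_iff] at hg
    obtain ⟨V0, a, b, ⟨x⟩, hab⟩ := hg
    have hZ : Z.left ≤ V' x.1 x.2 := leOfHom a
    refine ⟨fun j => rr hZ (c x.1 x.2 j.down), ?_⟩
    have h2 := congrArg (rs N hZ) (hc x.1 x.2)
    rw [rs_rs, map_sum] at h2
    refine (over_res N W g t).trans ?_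
    refine Eq.trans ?_ (h2.trans ?_)
    · rfl
    · rw [← Equiv.sum_comp Equiv.ulift.{u}.symm]
      · refine Finset.sum_congr rfl fun j _ => ?_
        rw [rs_smul, rs_rs]
        rfl


lemma lrel_of_rel {N : SheafOfModules.{u} R} {W : Opens T} {I K : Type u} [Fintype I] [Fintype K]
    (σ : I → (N.over W).sections) (ρ : K → I → RSec (R.over W)) (h : Rel σ ρ) {n m : ℕ}
    (e : I ≃ Fin n) (e' : K ≃ Fin m) :
    LRel N W (fun j => ofSec N W (σ (e.symm j)))
      (fun k j => ofRSec W (ρ (e'.symm k) (e.symm j))) := by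
  constructor
  · intro k
    have h1 := h.1 (e'.symm k) (op (Over.mk (𝟙 W)))
    rw [← Equiv.sum_comp e.symm] at h1
    exact h1
  · intro V hV c hc x hx
    have h1 : ∑ i : I, (show (R.over W).obj.obj (op (Over.mk (homOfLE hV))) from c (e i)) •
        sec (σ i) (op (Over.mk (homOfLE hV))) = 0 := by
      refine Eq.trans ?_ hc
      rw [← Equiv.sum_comp e.symm]
      refine Finset.sum_congr rfl fun j _ => ?_
      rw [sec_eq, e.apply_symm_apply]
      rfl
    obtain ⟨S, hS, hS'⟩ := h.2 (Over.mk (homOfLE hV)) (fun i => c (e i)) h1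
    rw [mem_over] at hS
    obtain ⟨V', h', hxV', hg⟩ := hS x hx
    obtain ⟨d, hd⟩ := hS' _ hg
    refine ⟨V', h', hxV', fun k => d (e'.symm k), fun j => ?_⟩
    have h2 := hd (e.symm j)
    rw [e.apply_symm_apply] at h2
    refine h2.trans ?_
    rw [← Equiv.sum_comp e'.symm]
    refine Finset.sum_congr rfl fun k _ => ?_
    rw [rsec_eq]
    rfl

lemma rsec_toRSec (W : Opens T) (r : R.obj.obj (op W)) (Y : (Over W)ᵒᵖ) :
    rsec (toRSec W r) Y = (show (R.over W).obj.obj Y from rr (leOfHom Y.unop.hom) r) := rfl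

lemma rel_of_lrel {N : SheafOfModules.{u} R} {W : Opens T} {n m : ℕ}
    (s : Fin n → N.val.obj (op W)) (r : Fin m → Fin n → R.obj.obj (op W)) (h : LRel N W s r) :
    Rel (fun j : ULift.{u} (Fin n) => toSec N W (s j.down))
      (fun (k : ULift.{u} (Fin m)) (j : ULift.{u} (Fin n)) => toRSec W (r k.down j.down)) := by
  classical
  constructor
  · intro k Y
    have h1 := congrArg (rs N (leOfHom Y.unop.hom)) (h.1 k.down)
    rw [map_sum, map_zero] at h1
    refine Eq.trans ?_ h1
    rw [← Equiv.sum_comp Equiv.ulift.{u}.symm]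
    refine Finset.sum_congr rfl fun j _ => ?_
    rw [rs_smul]
    rfl
  · intro Y c hc
    have hc' : ∑ j : Fin n, (show R.obj.obj (op Y.left) from c (ULift.up j)) •
        rs N (leOfHom Y.hom) (s j) = 0 := by
      rw [← Equiv.sum_comp Equiv.ulift.{u}.symm] at hc
      exact hc
    have h1 := h.2 Y.left (leOfHom Y.hom) (fun j => c (ULift.up j)) hc'
    choose V' h' hx d hd using h1
    refine ⟨(Sieve.overEquiv Y).symm (Sieve.generate (Presieve.ofArrows
      (fun x : Y.left => V' x.1 x.2) (fun x => homOfLE (h' x.1 x.2)))), ?_, ?_⟩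
    · rw [mem_over]
      intro x hx0
      refine ⟨V' x hx0, h' x hx0, hx x hx0, ?_⟩
      rw [Sieve.overEquiv_symm_iff]
      exact Sieve.le_generate _ _ _ (Presieve.ofArrows.mk (⟨x, hx0⟩ : Y.left))
    · intro Z g hg
      rw [Sieve.overEquiv_symm_iff] at hg
      obtain ⟨V0, a, b, ⟨x⟩, hab⟩ := hg
      have hZ : Z.left ≤ V' x.1 x.2 := leOfHom a
      refine ⟨fun k => rr hZ (d x.1 x.2 k.down), fun j => ?_⟩
      have h2 := congrArg (rr hZ) (hd x.1 x.2 j.down)
      rw [rr_rr, map_sum] at h2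
      refine Eq.trans ?_ (h2.trans ?_)
      · rfl
      · rw [← Equiv.sum_comp Equiv.ulift.{u}.symm]
        refine Finset.sum_congr rfl fun k _ => ?_
        rw [map_mul, rr_rr]
        rfl

/-- `N` is finitely presented near `x`. -/
def FPAt (N : SheafOfModules.{u} R) (x : T) : Prop :=
  ∃ (W : Opens T) (_ : x ∈ W) (n m : ℕ) (s : Fin n → N.val.obj (op W))
    (r : Fin m → Fin n → R.obj.obj (op W)), LGen N W s ∧ LRel N W s r

/-- `N` is of finite type near `x`. -/
def FTAt (N : SheafOfModules.{u} R) (x : T) : Prop :=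
  ∃ (W : Opens T) (_ : x ∈ W) (n : ℕ) (s : Fin n → N.val.obj (op W)), LGen N W s

theorem isFinitePresentation_iff (N : SheafOfModules.{u} R) :
    N.IsFinitePresentation ↔ ∀ x, FPAt N x := by
  classical
  constructor
  · intro h x
    obtain ⟨σ, hσ⟩ := SheafOfModules.IsFinitePresentation.exists_quasicoherentData N
    have hc := σ.coversTop
    rw [Opens.coversTop_iff, IsOpenCover] at hc
    have hx : x ∈ ⨆ i, σ.X i := by rw [hc]; trivial
    rw [Opens.mem_iSup] at hx
    obtain ⟨i, hi⟩ := hx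
    have hP := hσ.isFinite_presentation i
    have hf1 : Finite (σ.presentation i).generators.I := hP.isFiniteType_generators.finite
    have hf2 : Finite (σ.presentation i).relations.I := hP.isFiniteType_relations.finite
    let _ := Fintype.ofFinite (σ.presentation i).generators.I
    let _ := Fintype.ofFinite (σ.presentation i).relations.I
    obtain ⟨r, hr⟩ := exists_rel (σ.presentation i)
    let e := Fintype.equivFin (σ.presentation i).generators.I
    let e' := Fintype.equivFin (σ.presentation i).relations.I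
    exact ⟨σ.X i, hi, _, _, _, _,
      lgen_of_gen _ ((epi_iff_gen _).1 (σ.presentation i).generators.epi) e,
      lrel_of_rel _ _ hr e e'⟩
  · intro h
    choose U hU n m s r hg hr using h
    have hP := fun x => presentation_of_gen_rel _ _ (gen_of_lgen (s x) (hg x))
      (rel_of_lrel (s x) (r x) (hr x))
    choose G hG' using hP
    have hc : (Opens.grothendieckTopology T).CoversTop U := by
      rw [Opens.coversTop_iff, IsOpenCover]
      exact eq_top_iff.mpr fun x _ => Opens.mem_iSup.mpr ⟨x, hU x⟩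
    let σ := SheafOfModules.QuasicoherentData.mk.{u, u, u, u} (I := ↥T) U hc G
    have hσ : σ.IsFinitePresentation :=
      SheafOfModules.QuasicoherentData.IsFinitePresentation.mk.{u, u, u, u} hG'
    exact SheafOfModules.IsFinitePresentation.mk.{u, u, u} ⟨σ, hσ⟩

theorem isFiniteType_iff (N : SheafOfModules.{u} R) :
    N.IsFiniteType ↔ ∀ x, FTAt N x := by
  classical
  constructor
  · intro h x
    obtain ⟨σ, hσ⟩ := SheafOfModules.IsFiniteType.exists_localGeneratorsData N
    have hc := σ.coversTop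
    rw [Opens.coversTop_iff, IsOpenCover] at hc
    have hx : x ∈ ⨆ i, σ.X i := by rw [hc]; trivial
    rw [Opens.mem_iSup] at hx
    obtain ⟨i, hi⟩ := hx
    have hf1 : Finite (σ.generators i).I := (hσ.isFiniteType i).finite
    let _ := Fintype.ofFinite (σ.generators i).I
    let e := Fintype.equivFin (σ.generators i).I
    exact ⟨σ.X i, hi, _, _, lgen_of_gen _ ((epi_iff_gen _).1 (σ.generators i).epi) e⟩
  · intro h
    choose U hU n s hg using h
    have hP := fun x => (epi_iff_gen _).2 (gen_of_lgen (s x) (hg x))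
    have hc : (Opens.grothendieckTopology T).CoversTop U := by
      rw [Opens.coversTop_iff, IsOpenCover]
      exact eq_top_iff.mpr fun x _ => Opens.mem_iSup.mpr ⟨x, hU x⟩
    let σ := SheafOfModules.LocalGeneratorsData.mk.{u, u, u, u} (I := ↥T) U hc
      (fun x => ⟨ULift.{u} (Fin (n x)), _, hP x⟩)
    have hσ : σ.IsFiniteType := SheafOfModules.LocalGeneratorsData.IsFiniteType.mk.{u, u, u, u}
      (fun x => ⟨inferInstanceAs (Finite (ULift.{u} (Fin (n x))))⟩)
    exact SheafOfModules.IsFiniteType.mk.{u, u, u} ⟨σ, hσ⟩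

end Groth.Agent.Gaga.H976.TM3
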