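import Groth.Agent.Gaga.H986.Pull
import Groth.Agent.Gaga.H986.Nak
import Groth.Agent.Gaga.H974.AnStalk
import Groth.Agent.Gaga.H976.TM3
import Mathlib.AlgebraicGeometry.IdealSheaf.Subscheme

/-!
# Definitions for the proof of GAGA, essential surjectivity

* `algGerm x : O_{X,x} →+* hol_x`;
* `idealAt I x`: the ideal of the holomorphic stalk generated by an algebraic ideal sheaf;
* `Kills I N`: the ideal sheaf `I` kills the analytic sheaf `N`;
* `Alg N`: `N` is the analytification of a coherent sheaf.
-/

set_option autoImplicit false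

open CategoryTheory AlgebraicGeometry TopologicalSpace Opposite

noncomputable section

namespace Groth.Agent.Gaga.H976.Defs

open Groth.Agent.Gaga.H975.ModSec Groth.Agent.Gaga.H986.Stalk Groth.Agent.Gaga.H986.Pull

variable {X : Scheme.{0}} [X.Over An.SC]

/-- The map `O_X(U) → hol_x` for `x ∈ U(ℂ)`. -/
def holGerm (x : An.Pts X) (U : X.Opens) (hx : x.pt ∈ U) : Γ(X, U) →+* StO (An.hol X) x :=
  (gmO (An.hol X) x ((An.baseF X).obj U) hx).comp (An.toHolApp U).hom

/-- The ideal of the holomorphic stalk at `x` generated by an algebraic ideal sheaf. -/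
def idealAt (I : X.IdealSheafData) (x : An.Pts X) : Ideal (StO (An.hol X) x) :=
  ⨆ (U : X.affineOpens) (hx : x.pt ∈ U.1), (I.ideal U).map (holGerm x U.1 hx)

/-- The ideal of the algebraic stalk generated by an ideal sheaf. -/
def stIdeal {X : Scheme.{0}} (I : X.IdealSheafData) (x : X) : Ideal (X.presheaf.stalk x) :=
  ⨆ (U : X.affineOpens) (hx : x ∈ U.1), (I.ideal U).map (X.presheaf.germ U.1 x hx).hom

/-- The map of holomorphic stalks induced by a morphism over `ℂ`. -/
def anR {W P : Scheme.{0}} [W.Over An.SC] [P.Over An.SC] (f : W ⟶ P) [f.IsOver An.SC]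
    (y : An.Pts W) : StO (An.hol P) (An.Pts.map f y) →+* StO (An.hol W) y :=
  stR (R := An.hol P) (R1 := An.hol W) (An.anMapRingHom f) y

/-- The ideal sheaf `I` kills the analytic sheaf `N`. -/
def Kills (I : X.IdealSheafData) (N : An.AnMod X) : Prop :=
  ∀ (x : An.Pts X), ∀ b ∈ idealAt I x, ∀ t : St (R := An.hol X) N x, b • t = 0

/-- `N` is (isomorphic to) the analytification of a coherent sheaf. -/
def Alg (N : An.AnMod X) : Prop :=
  ∃ M : X.Modules, Coh.IsCoh M ∧ Nonempty ((An.analytify X).obj M ≅ N)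

section Push

variable {T T1 : TopCat.{0}} {f : T1 ⟶ T} {R : TopCat.Sheaf CommRingCat.{0} T}
  {R1 : TopCat.Sheaf CommRingCat.{0} T1}
  [(Opens.map f).IsContinuous (Opens.grothendieckTopology T) (Opens.grothendieckTopology T1)]
  (φ : ringSheaf R ⟶ ((Opens.map f).sheafPushforwardContinuous RingCat.{0}
    (Opens.grothendieckTopology T) (Opens.grothendieckTopology T1)).obj (ringSheaf R1))

/-- The canonical map from the stalk of the direct image. -/
def pushSt (N : Mod R1) (y : T1) : St ((push φ).obj N) (f y) →+ St N y :=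
  descAdd ((push φ).obj N) (f y) (St N y) (fun V hy => (gm N y (pre f V) hy).comp (ofPush φ))
    (fun V W h hy s => by
      change gm N y (pre f W) hy (res N (pre_mono f h) (ofPush φ s)) = _
      rw [gm_res]; rfl)

theorem pushSt_gm (N : Mod R1) (y : T1) (V : Opens T) (hy : f y ∈ V)
    (s : Sec ((push φ).obj N) V) :
    pushSt φ N y (gm ((push φ).obj N) (f y) V hy s) = gm N y (pre f V) hy (ofPush φ s) :=
  descAdd_gm ((push φ).obj N) (f y) _ _ _ V hy s

end Push

end Groth.Agent.Gaga.H976.Defs
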