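import Groth.Agent.Gaga.H976.Defs2

/-!
# The ideals of the holomorphic stalks generated by an algebraic ideal sheaf

* `idealAt_eq`, `stIdeal_eq`: computed on one affine open;
* `idealAt_pow`;
* `idealAt_eq_top`, `stIdeal_eq_top_iff`: outside the support;
* `exists_gens`: local generators of `(idealAt I y) ^ k`;
* `anR_mem`: functoriality.
-/

set_option autoImplicit false

open CategoryTheory AlgebraicGeometry TopologicalSpace Opposite

noncomputable section

namespace Groth.Agent.Gaga.H976.IdealAt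

open Groth.Agent.Gaga.H975.ModSec Groth.Agent.Gaga.H986.Stalk Groth.Agent.Gaga.H986.Pull
open Groth.Agent.Gaga.H976.Defs Groth.Agent.Gaga.H976.Defs2

variable {X : Scheme.{0}} [X.Over An.SC]

theorem holGerm_res (x : An.Pts X) {U V : X.Opens} (h : V ≤ U) (hx : x.pt ∈ V) (f : Γ(X, U)) :
    holGerm x V hx (X.presheaf.map (homOfLE h).op f) = holGerm x U (h hx) f := by
  have h1 : (An.toHolApp V).hom (X.presheaf.map (homOfLE h).op f) =
      resO (R := An.hol X) (V := (An.baseF X).obj U) (W := (An.baseF X).obj V) (fun y hy => h hy)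
        ((An.toHolApp U).hom f) := by
    apply Subtype.ext
    funext y
    exact An.ev_res y.1 h y.2 f
  change gmO (An.hol X) x ((An.baseF X).obj V) hx ((An.toHolApp V).hom _) = _
  rw [h1]
  exact gmO_resO x (V := (An.baseF X).obj U) (W := (An.baseF X).obj V) (fun y hy => h hy) hx _

theorem map_holGerm_of_le (I : X.IdealSheafData) (x : An.Pts X) {U V : X.affineOpens}
    (h : V ≤ U) (hx : x.pt ∈ V.1) :
    (I.ideal U).map (holGerm x U.1 (h hx)) = (I.ideal V).map (holGerm x V.1 hx) := by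
  rw [← I.map_ideal h, Ideal.map_map]
  congr 1
  ext f
  exact (holGerm_res x h hx f).symm

omit [X.Over An.SC] in
theorem exists_affine_le (x : X) (U V : X.Opens) (hU : x ∈ U) (hV : x ∈ V) :
    ∃ W : X.affineOpens, x ∈ W.1 ∧ W.1 ≤ U ∧ W.1 ≤ V := by
  obtain ⟨W, hW, hxW, hWU⟩ := exists_isAffineOpen_mem_and_subset
    (show x ∈ (U ⊓ V : X.Opens) from ⟨hU, hV⟩)
  exact ⟨⟨W, hW⟩, hxW, fun y hy => (hWU hy).1, fun y hy => (hWU hy).2⟩

/-- [G1] -/
theorem idealAt_eq (I : X.IdealSheafData) (x : An.Pts X) (U : X.affineOpens) (hx : x.pt ∈ U.1) :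
    idealAt I x = (I.ideal U).map (holGerm x U.1 hx) := by
  apply le_antisymm
  · refine iSup_le fun V => iSup_le fun hV => ?_
    obtain ⟨W, hxW, hWU, hWV⟩ := exists_affine_le x.pt U.1 V.1 hx hV
    rw [map_holGerm_of_le I x (U := V) (V := W) hWV hxW,
      map_holGerm_of_le I x (U := U) (V := W) hWU hxW]
  · exact le_iSup_of_le U (le_iSup_of_le hx le_rfl)

omit [X.Over An.SC] in
theorem map_germ_of_le (I : X.IdealSheafData) (x : X) {U V : X.affineOpens}
    (h : V ≤ U) (hx : x ∈ V.1) :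
    (I.ideal U).map (X.presheaf.germ U.1 x (h hx)).hom =
      (I.ideal V).map (X.presheaf.germ V.1 x hx).hom := by
  rw [← I.map_ideal h, Ideal.map_map]
  congr 1
  ext f
  exact (TopCat.Presheaf.germ_res_apply X.presheaf (homOfLE h) x hx f).symm

omit [X.Over An.SC] in
/-- [G1b] -/
theorem stIdeal_eq (I : X.IdealSheafData) (x : X) (U : X.affineOpens) (hx : x ∈ U.1) :
    stIdeal I x = (I.ideal U).map (X.presheaf.germ U.1 x hx).hom := by
  apply le_antisymm
  · refine iSup_le fun V => iSup_le fun hV => ?_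
    obtain ⟨W, hxW, hWU, hWV⟩ := exists_affine_le x U.1 V.1 hx hV
    rw [map_germ_of_le I x (U := V) (V := W) hWV hxW,
      map_germ_of_le I x (U := U) (V := W) hWU hxW]
  · exact le_iSup_of_le U (le_iSup_of_le hx le_rfl)

omit [X.Over An.SC] in
theorem exists_affine (x : X) : ∃ U : X.affineOpens, x ∈ U.1 := by
  obtain ⟨W, hxW, -, -⟩ := exists_affine_le x ⊤ ⊤ trivial trivial
  exact ⟨W, hxW⟩

/-- [G2] -/
theorem idealAt_pow (I : X.IdealSheafData) (n : ℕ) (x : An.Pts X) :
    idealAt (I ^ n) x = (idealAt I x) ^ n := by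
  obtain ⟨U, hU⟩ := exists_affine x.pt
  rw [idealAt_eq _ x U hU, idealAt_eq _ x U hU, ← Ideal.map_pow]
  rfl

omit [X.Over An.SC] in
theorem exists_isUnit_germ (I : X.IdealSheafData) (x : X) (hx : x ∉ I.support) (U : X.affineOpens)
    (hU : x ∈ U.1) : ∃ f ∈ I.ideal U, x ∈ X.basicOpen f := by
  rw [Scheme.IdealSheafData.mem_support_iff_of_mem hU, Scheme.mem_zeroLocus_iff] at hx
  push Not at hx
  exact hx

/-- [G3] -/
theorem idealAt_eq_top (I : X.IdealSheafData) (x : An.Pts X) (hx : x.pt ∉ I.support) :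
    idealAt I x = ⊤ := by
  obtain ⟨U, hU⟩ := exists_affine x.pt
  obtain ⟨f, hf, hxf⟩ := exists_isUnit_germ I x.pt hx U hU
  rw [idealAt_eq I x U hU]
  refine Ideal.eq_top_of_isUnit_mem _ (Ideal.mem_map_of_mem _ hf) ?_
  have h1 : IsUnit (X.presheaf.map (homOfLE (X.basicOpen_le f)).op f) :=
    RingedSpace.isUnit_res_basicOpen _ f
  have h2 := h1.map (holGerm x (X.basicOpen f) hxf)
  rw [holGerm_res] at h2
  exact h2

omit [X.Over An.SC] in
theorem stIdeal_eq_top_iff (I : X.IdealSheafData) (x : X) : stIdeal I x = ⊤ ↔ x ∉ I.support := by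
  obtain ⟨U, hU⟩ := exists_affine x
  rw [stIdeal_eq I x U hU]
  constructor
  · intro h hx
    rw [Scheme.IdealSheafData.mem_support_iff_of_mem hU, Scheme.mem_zeroLocus_iff] at hx
    have h1 : (I.ideal U).map (X.presheaf.germ U.1 x hU).hom ≤
        IsLocalRing.maximalIdeal (X.presheaf.stalk x) := by
      rw [Ideal.map_le_iff_le_comap]
      intro f hf
      rw [Ideal.mem_comap, IsLocalRing.mem_maximalIdeal, mem_nonunits_iff]
      intro hu
      exact hx f hf ((X.mem_basicOpen f x hU).2 hu)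
    rw [h, top_le_iff] at h1
    exact Ideal.IsPrime.ne_top' h1
  · intro hx
    obtain ⟨f, hf, hxf⟩ := exists_isUnit_germ I x hx U hU
    exact Ideal.eq_top_of_isUnit_mem _ (Ideal.mem_map_of_mem _ hf) ((X.mem_basicOpen f x hU).1 hxf)

/-- [G1c] -/
theorem exists_gens [IsLocallyNoetherian X] (I : X.IdealSheafData) (k : ℕ) (x : An.top X) :
    ∃ (V : Opens (An.top X)) (_ : x ∈ V) (n : ℕ) (g : Fin n → O (An.hol X) V),
      ∀ (y : An.top X) (hy : y ∈ V),
        idealAt I (show An.Pts X from y) ^ k =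
          Ideal.span (Set.range fun i => gmO (An.hol X) y V hy (g i)) := by
  obtain ⟨U, hU⟩ := exists_affine (An.Pts.pt x)
  have hNoeth : IsNoetherianRing Γ(X, U.1) := IsLocallyNoetherian.component_noetherian U
  obtain ⟨n, g, hg⟩ := Submodule.fg_iff_exists_fin_generating_family.1
    (IsNoetherian.noetherian (I.ideal U ^ k))
  refine ⟨(An.baseF X).obj U.1, hU, n, fun i => (An.toHolApp U.1).hom (g i), fun y hy => ?_⟩
  have h1 := idealAt_eq I y U hy
  rw [h1, ← Ideal.map_pow, ← hg]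
  change Ideal.map _ (Ideal.span _) = _
  rw [Ideal.map_span, ← Set.range_comp]
  rfl

/-- The map `O_{X,x} → hol_x`. -/
def algGerm (x : An.Pts X) : X.presheaf.stalk x.pt →+* StO (An.hol X) x :=
  stR (T := (X : TopCat.{0})) (f := An.ptTop X) (R := X.sheaf) (R1 := An.hol X) (An.anRingHom X) x

theorem algGerm_germ (x : An.Pts X) (U : X.Opens) (hx : x.pt ∈ U) (f : Γ(X, U)) :
    algGerm x (X.presheaf.germ U x.pt hx f) = holGerm x U hx f :=
  stR_gmO (T := (X : TopCat.{0})) (f := An.ptTop X) (R := X.sheaf) (R1 := An.hol X)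
    (An.anRingHom X) x U hx f

/-- `idealAt` is generated by the ideal of the algebraic stalk. -/
theorem idealAt_eq_map (I : X.IdealSheafData) (x : An.Pts X) :
    idealAt I x = (stIdeal I x.pt).map (algGerm x) := by
  obtain ⟨U, hU⟩ := exists_affine x.pt
  rw [idealAt_eq I x U hU, stIdeal_eq I x.pt U hU, Ideal.map_map]
  congr 1
  ext f
  exact (algGerm_germ x U.1 hU f).symm

theorem holGerm_mem (I : X.IdealSheafData) (x : An.Pts X) (U : X.Opens) (hx : x.pt ∈ U)
    (f : Γ(X, U)) (hf : X.presheaf.germ U x.pt hx f ∈ stIdeal I x.pt) :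
    holGerm x U hx f ∈ idealAt I x := by
  rw [idealAt_eq_map, ← algGerm_germ]
  exact Ideal.mem_map_of_mem _ hf

theorem anR_holGerm {W P : Scheme.{0}} [W.Over An.SC] [P.Over An.SC] (f : W ⟶ P) [f.IsOver An.SC]
    (y : An.Pts W) (U : P.Opens) (hU : (An.Pts.map f y).pt ∈ U) (g : Γ(P, U)) :
    anR f y (holGerm (An.Pts.map f y) U hU g) =
      holGerm y (f ⁻¹ᵁ U) (by rw [An.Pts.pt_map] at hU; exact hU) (f.app U g) := by
  have h1 : cm (R := An.hol P) (R1 := An.hol W) (An.anMapRingHom f) ((An.baseF P).obj U)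
      ((An.toHolApp U).hom g) = (An.toHolApp (f ⁻¹ᵁ U)).hom (f.app U g) := by
    apply Subtype.ext
    funext z
    exact An.Pts.ev_map f z.1 U z.2 g
  refine (stR_gmO (R := An.hol P) (R1 := An.hol W) (An.anMapRingHom f) y
    ((An.baseF P).obj U) hU _).trans ?_
  exact congrArg (gmO (An.hol W) y (pre (An.topMap f) ((An.baseF P).obj U)) hU) h1

/-- [G5] -/
theorem anR_mem {W P : Scheme.{0}} [W.Over An.SC] [P.Over An.SC] (f : W ⟶ P) [f.IsOver An.SC]
    (K : P.IdealSheafData) (I : W.IdealSheafData) (y : An.Pts W)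
    (h : ∀ b ∈ stIdeal K (f y.pt), (f.stalkMap y.pt).hom b ∈ stIdeal I y.pt) :
    ∀ b ∈ idealAt K (An.Pts.map f y), anR f y b ∈ idealAt I y := by
  obtain ⟨U, hU⟩ := exists_affine (An.Pts.map f y).pt
  rw [idealAt_eq K _ U hU]
  intro b hb
  suffices h0 : (K.ideal U).map (holGerm (An.Pts.map f y) U.1 hU) ≤ (idealAt I y).comap (anR f y) from
    h0 hb
  rw [Ideal.map_le_iff_le_comap]
  intro g hg
  have hU' : f y.pt ∈ U.1 := by rw [← An.Pts.pt_map]; exact hU
  rw [Ideal.mem_comap, Ideal.mem_comap, anR_holGerm]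
  refine holGerm_mem I y _ _ _ ?_
  have h1 := h (P.presheaf.germ U.1 (f y.pt) hU' g) (by
    rw [stIdeal_eq K _ U hU']
    exact Ideal.mem_map_of_mem _ hg)
  have h2 := Scheme.Hom.germ_stalkMap_apply f U.1 y.pt hU' g
  have h3 : (f.stalkMap y.pt).hom (P.presheaf.germ U.1 (f y.pt) hU' g) =
    W.presheaf.germ (f ⁻¹ᵁ U.1) y.pt hU' (f.app U.1 g) := h2
  rw [h3] at h1
  exact h1

end Groth.Agent.Gaga.H976.IdealAt
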