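import Groth.Agent.Gaga.H976.Defs

/-!
# Submodules and quotients of a sheaf of modules given by submodules of the stalks

`S x : Submodule (StO R x) (St N x)` for all `x`:
* `subMod S`, `subι S : subMod S ⟶ N`: sections whose germs lie in `S x`;
* `OpenFam S`: every element of `S x` is the germ of a section with germs in `S y` near `x`;
* `quotMod S`, `quotπ S : N ⟶ quotMod S`; on stalks `St N x → St (quotMod S) x` is surjective with
  kernel `S x` when `OpenFam S`.
-/

set_option autoImplicit false

open CategoryTheory CategoryTheory.Limits TopologicalSpace Opposite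

noncomputable section

namespace Groth.Agent.Gaga.H976.Quot

open Groth.Agent.Gaga.H975.ModSec Groth.Agent.Gaga.H986.Stalk Groth.Agent.Gaga.H976.Defs

variable {T : TopCat.{0}} {R : TopCat.Sheaf CommRingCat.{0} T} {N : Mod R}

/-- Sections with germs in `S x`. -/
def subSec (S : ∀ x : T, Submodule (StO R x) (St N x)) (V : Opens T) :
    Submodule (O R V) (Sec N V) where
  carrier := {s | ∀ (x : T) (hx : x ∈ V), gm N x V hx s ∈ S x}
  add_mem' {a b} ha hb x hx := by
    rw [map_add]
    exact (S x).add_mem (ha x hx) (hb x hx)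
  zero_mem' x hx := by
    rw [map_zero]
    exact (S x).zero_mem
  smul_mem' r s hs x hx := by
    rw [gm_smul]
    exact (S x).smul_mem _ (hs x hx)

theorem res_mem_subSec (S : ∀ x : T, Submodule (StO R x) (St N x)) {V W : Opens T} (h : W ≤ V)
    {s : Sec N V} (hs : s ∈ subSec S V) : res N h s ∈ subSec S W := by
  intro x hx
  rw [gm_res]
  exact hs x (h hx)

/-- The data of the subsheaf. -/
def subData (S : ∀ x : T, Submodule (StO R x) (St N x)) : Data R where
  S V := subSec S V
  r {V W} h := AddMonoidHom.mk' (fun s => ⟨res N h s.1, res_mem_subSec S h s.2⟩)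
    (fun a b => Subtype.ext (map_add (res N h) a.1 b.1))
  r_self h s := Subtype.ext (res_self N h s.1)
  r_r h h' s := Subtype.ext (res_res N h h' s.1)
  r_smul h a s := Subtype.ext (res_smul N h a s.1)
  ext {ι} U s t h := Subtype.ext (eq_of_locally N U (⨆ i, U i) le_rfl (fun i => le_iSup U i)
    s.1 t.1 fun i => congrArg Subtype.val (h i))
  glue {ι} U s h := by
    obtain ⟨t, ht⟩ := exists_glue N U (⨆ i, U i) le_rfl (fun i => le_iSup U i) (fun i => (s i).1)
      (fun i j W hi hj => by
        have := congrArg Subtype.val (h i j)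
        have h2 := congrArg (res N (le_inf hi hj : W ≤ U i ⊓ U j)) this
        change res N _ (res N _ (s i).1) = res N _ (res N _ (s j).1) at h2
        rw [res_res, res_res] at h2
        exact h2)
    refine ⟨⟨t, fun x hx => ?_⟩, fun i => Subtype.ext (ht i)⟩
    obtain ⟨i, hi⟩ := Opens.mem_iSup.1 hx
    rw [← gm_res N x (le_iSup U i) hi, ht i]
    exact (s i).2 x hi

/-- The subsheaf of sections with germs in `S x`. -/
def subMod (S : ∀ x : T, Submodule (StO R x) (St N x)) : Mod R := (subData S).toMod

/-- The inclusion. -/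
def subι (S : ∀ x : T, Submodule (StO R x) (St N x)) : subMod S ⟶ N :=
  homMk (fun V => (subSec S V).subtype.toAddMonoidHom) (fun _ _ _ => rfl) (fun _ _ _ _ => rfl)

theorem app_subι (S : ∀ x : T, Submodule (StO R x) (St N x)) (V : Opens T)
    (s : Sec (subMod S) V) : app (subι S) V s = (show subSec S V from s).1 := rfl

theorem app_subι_injective (S : ∀ x : T, Submodule (StO R x) (St N x)) (V : Opens T) :
    Function.Injective (app (subι S) V) := fun _ _ h => Subtype.ext h

theorem stMap_subι_injective (S : ∀ x : T, Submodule (StO R x) (St N x)) (x : T) :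
    Function.Injective (stMap (subι S) x) :=
  (app_injective_iff (subι S)).1 (app_subι_injective S) x

theorem stMap_subι_mem (S : ∀ x : T, Submodule (StO R x) (St N x)) (x : T)
    (t : St (subMod S) x) : stMap (subι S) x t ∈ S x := by
  obtain ⟨V, hV, s, rfl⟩ := exists_gm (subMod S) x t
  rw [stMap_gm, app_subι]
  exact (show subSec S V from s).2 x hV

/-- Every element of `S x` extends to a section in `S`. -/
def OpenFam (S : ∀ x : T, Submodule (StO R x) (St N x)) : Prop :=
  ∀ (x : T), ∀ t ∈ S x, ∃ (V : Opens T) (hx : x ∈ V) (s : Sec N V), gm N x V hx s = t ∧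
    ∀ (y : T) (hy : y ∈ V), gm N y V hy s ∈ S y

theorem range_stMap_subι {S : ∀ x : T, Submodule (StO R x) (St N x)} (h : OpenFam S) (x : T) :
    LinearMap.range (stMap (subι S) x) = S x := by
  apply le_antisymm
  · rintro _ ⟨t, rfl⟩
    exact stMap_subι_mem S x t
  · intro t ht
    obtain ⟨V, hx, s, rfl, hs⟩ := h x t ht
    refine ⟨gm (subMod S) x V hx (show subSec S V from ⟨s, hs⟩), ?_⟩
    rw [stMap_gm]
    rfl

section Bridge

open Groth.Agent.Gaga.H974

/-- The two versions of the map on stalks agree. -/
theorem stMap_eq {M N : Mod R} (φ : M ⟶ N) (x : T) (t : St M x) :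
    stMap φ x t = (show St N x from RSky.stalkMap (A := R) φ x t) := by
  obtain ⟨V, hV, s, rfl⟩ := exists_gm M x t
  rw [stMap_gm]
  exact (RSky.stalkMap_germ (A := R) φ x V hV s).symm

theorem mono_iff {M N : Mod R} (φ : M ⟶ N) : Mono φ ↔ ∀ x, Function.Injective (stMap φ x) := by
  refine (RExact.mono_iff (A := R) φ).trans (forall_congr' fun x => ?_)
  have : (stMap φ x : St M x → St N x) = RSky.stalkMap (A := R) φ x := funext (stMap_eq φ x)
  rw [this]
  rfl

theorem epi_iff {M N : Mod R} (φ : M ⟶ N) : Epi φ ↔ ∀ x, Function.Surjective (stMap φ x) := by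
  refine (RExact.epi_iff (A := R) φ).trans (forall_congr' fun x => ?_)
  have : (stMap φ x : St M x → St N x) = RSky.stalkMap (A := R) φ x := funext (stMap_eq φ x)
  rw [this]
  rfl

theorem exact_iff (C : ShortComplex (Mod R)) :
    C.Exact ↔ ∀ x, Function.Exact (stMap C.f x) (stMap C.g x) := by
  refine (RExact.exact_iff (A := R) C).trans (forall_congr' fun x => ?_)
  have h1 : (stMap C.f x : St C.X₁ x → St C.X₂ x) = RSky.stalkMap (A := R) C.f x :=
    funext (stMap_eq C.f x)
  have h2 : (stMap C.g x : St C.X₂ x → St C.X₃ x) = RSky.stalkMap (A := R) C.g x :=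
    funext (stMap_eq C.g x)
  rw [h1, h2]
  rfl

theorem isZero_iff (M : Mod R) : IsZero M ↔ ∀ x, Subsingleton (St M x) :=
  RExact.isZero_iff (A := R) M

/-- The stalk of a cokernel. -/
theorem ker_stMap_cokernel {M N : Mod R} (φ : M ⟶ N) (x : T) :
    LinearMap.ker (stMap (cokernel.π φ) x) = LinearMap.range (stMap φ x) := by
  have h : (ShortComplex.mk φ (cokernel.π φ) (cokernel.condition φ)).Exact :=
    ShortComplex.exact_of_g_is_cokernel _ (cokernelIsCokernel φ)
  exact LinearMap.exact_iff.1 ((exact_iff _).1 h x)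

theorem stMap_cokernel_surjective {M N : Mod R} (φ : M ⟶ N) (x : T) :
    Function.Surjective (stMap (cokernel.π φ) x) :=
  (epi_iff (cokernel.π φ)).1 inferInstance x

/-- The stalk of a kernel. -/
theorem range_stMap_kernel {M N : Mod R} (φ : M ⟶ N) (x : T) :
    LinearMap.range (stMap (kernel.ι φ) x) = LinearMap.ker (stMap φ x) := by
  have h : (ShortComplex.mk (kernel.ι φ) φ (kernel.condition φ)).Exact :=
    ShortComplex.exact_of_f_is_kernel _ (kernelIsKernel φ)
  exact (LinearMap.exact_iff.1 ((exact_iff _).1 h x)).symm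

theorem stMap_kernel_injective {M N : Mod R} (φ : M ⟶ N) (x : T) :
    Function.Injective (stMap (kernel.ι φ) x) :=
  (mono_iff (kernel.ι φ)).1 inferInstance x

end Bridge

/-- The quotient. -/
def quotMod (S : ∀ x : T, Submodule (StO R x) (St N x)) : Mod R := cokernel (subι S)

/-- The projection. -/
def quotπ (S : ∀ x : T, Submodule (StO R x) (St N x)) : N ⟶ quotMod S := cokernel.π (subι S)

instance (S : ∀ x : T, Submodule (StO R x) (St N x)) : Epi (quotπ S) :=
  inferInstanceAs (Epi (cokernel.π (subι S)))

theorem stMap_quotπ_surjective (S : ∀ x : T, Submodule (StO R x) (St N x)) (x : T) :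
    Function.Surjective (stMap (quotπ S) x) := stMap_cokernel_surjective _ x

theorem ker_stMap_quotπ {S : ∀ x : T, Submodule (StO R x) (St N x)} (h : OpenFam S) (x : T) :
    LinearMap.ker (stMap (quotπ S) x) = S x :=
  (ker_stMap_cokernel _ x).trans (range_stMap_subι h x)

/-- Universal property of the quotient. -/
theorem exists_desc (S : ∀ x : T, Submodule (StO R x) (St N x)) {P : Mod R} (g : N ⟶ P)
    (hg : ∀ x, S x ≤ LinearMap.ker (stMap g x)) : ∃ g' : quotMod S ⟶ P, quotπ S ≫ g' = g := by
  have h : subι S ≫ g = 0 := hom_ext_stalk fun x => by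
    rw [stMap_comp, stMap_zero]
    ext t
    exact hg x (stMap_subι_mem S x t)
  exact ⟨cokernel.desc (subι S) g h, cokernel.π_desc _ _ _⟩

/-- Two epimorphisms with the same kernels on stalks have isomorphic targets. -/
theorem nonempty_iso_of_ker_eq {P Q : Mod R} (f : N ⟶ P) (g : N ⟶ Q)
    (hf : ∀ x, Function.Surjective (stMap f x)) (hg : ∀ x, Function.Surjective (stMap g x))
    (h : ∀ x, LinearMap.ker (stMap f x) = LinearMap.ker (stMap g x)) :
    ∃ e : P ≅ Q, f ≫ e.hom = g := by
  have hfe : Epi f := (epi_iff f).2 hf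
  have hf' : IsColimit (CokernelCofork.ofπ f (kernel.condition f)) :=
    Abelian.epiIsCokernelOfKernel _ (limit.isLimit _)
  have h0 : kernel.ι f ≫ g = 0 := hom_ext_stalk fun x => by
    rw [stMap_comp, stMap_zero]
    ext t
    have : stMap (kernel.ι f) x t ∈ LinearMap.ker (stMap f x) := by
      rw [← range_stMap_kernel]; exact ⟨t, rfl⟩
    rw [h x] at this
    exact this
  let k : P ⟶ Q := hf'.desc (CokernelCofork.ofπ g h0)
  have hk : f ≫ k = g := hf'.fac (CokernelCofork.ofπ g h0) WalkingParallelPair.one
  have hiso : IsIso k := by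
    rw [isIso_iff_stMap]
    intro x
    have hkx : ∀ t, stMap k x (stMap f x t) = stMap g x t := fun t => by
      rw [← stMap_comp_apply, hk]
    constructor
    · rw [injective_iff_map_eq_zero]
      intro t ht
      obtain ⟨t, rfl⟩ := hf x t
      rw [hkx] at ht
      have : t ∈ LinearMap.ker (stMap g x) := ht
      rw [← h x] at this
      exact this
    · intro t
      obtain ⟨s, rfl⟩ := hg x t
      exact ⟨stMap f x s, hkx s⟩
  exact ⟨asIso k, hk⟩

end Groth.Agent.Gaga.H976.Quot
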