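import Groth.Agent.Gaga.H976.FPC

/-!
# Further definitions for the proof of GAGA, essential surjectivity

* `powFam I n N`: the family of submodules `I^n N` of the stalks;
* `SuppIn Z N`: the stalks of `N` vanish at the complex points outside `Z`.
-/

set_option autoImplicit false

open CategoryTheory AlgebraicGeometry TopologicalSpace Opposite

noncomputable section

namespace Groth.Agent.Gaga.H976.Defs2

open Groth.Agent.Gaga.H975.ModSec Groth.Agent.Gaga.H986.Stalk Groth.Agent.Gaga.H986.Pull
open Groth.Agent.Gaga.H976.Defs

variable {X : Scheme.{0}} [X.Over An.SC]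

/-- The family of submodules `I^n N` of the stalks. -/
def powFam (I : X.IdealSheafData) (n : ℕ) (N : An.AnMod X) (x : An.top X) :
    Submodule (StO (An.hol X) x) (St (R := An.hol X) N x) :=
  (idealAt I (show An.Pts X from x)) ^ n • ⊤

/-- The stalks of `N` vanish at the complex points outside `Z`. -/
def SuppIn (Z : Set X) (N : An.AnMod X) : Prop :=
  ∀ x : An.Pts X, x.pt ∉ Z → Subsingleton (St (R := An.hol X) N x)

end Groth.Agent.Gaga.H976.Defs2
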