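import Groth.Agent.Gaga.H976.Quot

/-!
# Finitely presented sheaves of modules: stalkwise form

`FPS N x`: there are finitely many sections of `N` near `x` and finitely many relations which
generate the stalks and the relations in the stalks at all the points near `x`.
-/

set_option autoImplicit false

open CategoryTheory CategoryTheory.Limits TopologicalSpace Opposite

noncomputable section

namespace Groth.Agent.Gaga.H976.FPS

open Groth.Agent.Gaga.H975.ModSec Groth.Agent.Gaga.H986.Stalk Groth.Agent.Gaga.H976.Defs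
open Groth.Agent.Gaga.H986.Nak

variable {T : TopCat.{0}} {R : TopCat.Sheaf CommRingCat.{0} T}

/-- The `r k` are relations between the `s j` and generate all relations in the stalks. -/
def RelS (N : Mod R) (W : Opens T) {n m : ℕ} (s : Fin n → Sec N W) (r : Fin m → Fin n → O R W) :
    Prop :=
  ∀ (y : T) (hy : y ∈ W) (c : Fin n → StO R y), ∑ j, c j • gm N y W hy (s j) = 0 ↔
    c ∈ Submodule.span (StO R y) (Set.range fun k => fun j => gmO R y W hy (r k j))

/-- Stalkwise finite presentation near `x`. -/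
def FPS (N : Mod R) (x : T) : Prop :=
  ∃ (W : Opens T) (_ : x ∈ W) (n m : ℕ) (s : Fin n → Sec N W) (r : Fin m → Fin n → O R W),
    Gen N s ∧ RelS N W s r

theorem gen_iff_lgen (N : Mod R) (W : Opens T) {n : ℕ} (s : Fin n → Sec N W) :
    Gen N s ↔ TM3.LGen N W s := by
  rw [gen_iff]
  constructor
  · intro h V hV t x hx
    obtain ⟨V', hxV', h', c, hc⟩ := h x V hV hx t
    exact ⟨V', h', hxV', c, hc⟩
  · intro h x V hV hx t
    obtain ⟨V', h', hxV', c, hc⟩ := h V hV t x hx
    exact ⟨V', hxV', h', c, hc⟩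

theorem relS_of_lrel (N : Mod R) (W : Opens T) {n m : ℕ} (s : Fin n → Sec N W)
    (r : Fin m → Fin n → O R W) (h : TM3.LRel N W s r) : RelS N W s r := by
  intro y hy c
  constructor
  · intro hc
    obtain ⟨U, hyU, c', hc'⟩ := exists_gmO_fin y c
    have h1 : gm N y (U ⊓ W) ⟨hyU, hy⟩ (∑ j, (resO (inf_le_left : U ⊓ W ≤ U) (c' j) : O R (U ⊓ W)) •
        (res N (inf_le_right : U ⊓ W ≤ W) (s j) : Sec N (U ⊓ W))) = 0 := by
      rw [map_sum, ← hc]
      refine Finset.sum_congr rfl fun j _ => ?_
      rw [gm_smul, gm_res, gmO_resO, hc']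
    obtain ⟨V, hyV, hV, e⟩ := exists_res_eq_zero N _ h1
    have h2 : ∑ j, (resO (hV.trans inf_le_left) (c' j) : O R V) •
        (res N (hV.trans inf_le_right) (s j) : Sec N V) = 0 := by
      rw [← e, map_sum]
      refine Finset.sum_congr rfl fun j _ => ?_
      rw [res_smul, resO_resO, res_res]
    obtain ⟨V', h', hyV', d, hd⟩ := h.2 V (hV.trans inf_le_right)
      (fun j => resO (hV.trans inf_le_left) (c' j)) h2 y hyV
    have hd' : ∀ j, resO h' (resO (hV.trans inf_le_left) (c' j) : O R V) =
        ∑ k, (show O R V' from d k) * resO (h'.trans (hV.trans inf_le_right)) (r k j) := hd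
    have h3 : c = ∑ k, gmO R y V' hyV' (show O R V' from d k) • (fun j => gmO R y W hy (r k j)) := by
      funext j
      rw [Finset.sum_apply]
      have := congrArg (gmO R y V' hyV') (hd' j)
      rw [gmO_resO, gmO_resO, hc', map_sum] at this
      rw [this]
      refine Finset.sum_congr rfl fun k _ => ?_
      rw [map_mul, gmO_resO, Pi.smul_apply, smul_eq_mul]
    rw [h3]
    exact Submodule.sum_mem _ fun k _ => Submodule.smul_mem _ _ (Submodule.subset_span ⟨k, rfl⟩)
  · intro hc
    let L : (Fin n → StO R y) →ₗ[StO R y] St N y :=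
      Fintype.linearCombination (StO R y) (fun j => gm N y W hy (s j))
    have hL : ∀ c, L c = ∑ j, c j • gm N y W hy (s j) := fun c =>
      Fintype.linearCombination_apply _ _ _
    rw [← hL]
    suffices h0 : Submodule.span (StO R y) (Set.range fun k => fun j => gmO R y W hy (r k j)) ≤
        LinearMap.ker L from h0 hc
    rw [Submodule.span_le]
    rintro _ ⟨k, rfl⟩
    rw [SetLike.mem_coe, LinearMap.mem_ker, hL]
    have h1 : ∑ j, (r k j : O R W) • (s j : Sec N W) = 0 := h.1 k
    have := congrArg (gm N y W hy) h1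
    rw [map_zero, map_sum] at this
    rw [← this]
    exact Finset.sum_congr rfl fun j _ => (gm_smul N y W hy (r k j) (s j)).symm

theorem lrel_of_relS (N : Mod R) (W : Opens T) {n m : ℕ} (s : Fin n → Sec N W)
    (r : Fin m → Fin n → O R W) (h : RelS N W s r) : TM3.LRel N W s r := by
  constructor
  · intro k
    have h1 : ∑ j, (r k j : O R W) • (s j : Sec N W) = 0 := by
      refine eq_of_gm N fun y hy => ?_
      rw [map_zero, map_sum, ← (h y hy _).2 (Submodule.subset_span ⟨k, rfl⟩)]
      exact Finset.sum_congr rfl fun j _ => gm_smul N y W hy (r k j) (s j)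
    exact h1
  · intro V hV c hc y hy
    have hc' : ∑ j, (show O R V from c j) • res N hV (s j) = 0 := hc
    have h1 := (h y (hV hy) (fun j => gmO R y V hy (c j))).1 (by
      have := congrArg (gm N y V hy) hc'
      rw [map_zero, map_sum] at this
      rw [← this]
      refine Finset.sum_congr rfl fun j _ => ?_
      rw [gm_smul, gm_res])
    rw [Submodule.mem_span_range_iff_exists_fun] at h1
    obtain ⟨d, hd⟩ := h1
    obtain ⟨U, hyU, d', hd'⟩ := exists_gmO_fin y d
    have key : ∀ j, ∃ (Z : Opens T) (_ : y ∈ Z) (hZ : Z ≤ U ⊓ V),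
        resO (hZ.trans inf_le_right) (show O R V from c j) = ∑ k, resO (hZ.trans inf_le_left) (d' k) *
          resO (hZ.trans (inf_le_right.trans hV)) (r k j) := by
      intro j
      have h2 : gmO R y (U ⊓ V) ⟨hyU, hy⟩ (resO inf_le_right (show O R V from c j)) =
          gmO R y (U ⊓ V) ⟨hyU, hy⟩ (∑ k, resO (inf_le_left : U ⊓ V ≤ U) (d' k) *
            resO (inf_le_right.trans hV) (r k j)) := by
        rw [map_sum, gmO_resO]
        have := congrFun hd j
        rw [Finset.sum_apply] at this
        rw [← this]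
        refine Finset.sum_congr rfl fun k _ => ?_
        rw [map_mul, gmO_resO, gmO_resO, hd', Pi.smul_apply, smul_eq_mul]
      obtain ⟨Z, hyZ, hZ, e⟩ := exists_resO_eq _ h2
      refine ⟨Z, hyZ, hZ, ?_⟩
      rw [resO_resO, map_sum] at e
      rw [e]
      refine Finset.sum_congr rfl fun k _ => ?_
      rw [map_mul, resO_resO, resO_resO]
    choose Z hyZ hZ e using key
    obtain ⟨Z', hyZ', hZ'U, hZ'⟩ := exists_fin_inter Z hyZ (U ⊓ V) ⟨hyU, hy⟩
    refine ⟨Z', hZ'U.trans inf_le_right, hyZ', fun k => resO (hZ'U.trans inf_le_left) (d' k),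
      fun j => ?_⟩
    have := congrArg (resO (hZ' j)) (e j)
    rw [resO_resO, map_sum] at this
    refine this.trans (Finset.sum_congr rfl fun k _ => ?_)
    rw [map_mul, resO_resO, resO_resO]
    rfl

theorem fps_iff (N : Mod R) (x : T) : FPS N x ↔ TM3.FPAt N x := by
  constructor
  · rintro ⟨W, hx, n, m, s, r, hg, hr⟩
    exact ⟨W, hx, n, m, s, r, (gen_iff_lgen N W s).1 hg, lrel_of_relS N W s r hr⟩
  · rintro ⟨W, hx, n, m, s, r, hg, hr⟩
    exact ⟨W, hx, n, m, s, r, (gen_iff_lgen N W s).2 hg, relS_of_lrel N W s r hr⟩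

theorem isFinitePresentation_iff (N : Mod R) : N.IsFinitePresentation ↔ ∀ x, FPS N x := by
  rw [TM3.isFinitePresentation_iff]
  exact forall_congr' fun x => (fps_iff N x).symm

theorem FPS.ft {N : Mod R} {x : T} (h : FPS N x) : FTAt N x := by
  obtain ⟨W, hx, n, m, s, r, hg, hr⟩ := h
  exact ⟨W, hx, n, s, hg⟩

theorem isFiniteType_iff (N : Mod R) : N.IsFiniteType ↔ ∀ x, FTAt N x := by
  rw [TM3.isFiniteType_iff]
  refine forall_congr' fun x => ?_
  constructor
  · rintro ⟨W, hx, n, s, hg⟩
    exact ⟨W, hx, n, s, (gen_iff_lgen N W s).2 hg⟩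
  · rintro ⟨W, hx, n, s, hg⟩
    exact ⟨W, hx, n, s, (gen_iff_lgen N W s).1 hg⟩

end Groth.Agent.Gaga.H976.FPS
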