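import Mathlib.Algebra.Category.ModuleCat.Sheaf.Quasicoherent
import Mathlib.Algebra.Category.ModuleCat.Sheaf.Limits
import Mathlib.Algebra.Category.ModuleCat.Sheaf.Colimits
import Mathlib.Algebra.Category.ModuleCat.Presheaf.Submodule
import Mathlib.CategoryTheory.Sites.EpiMono
import Mathlib.Algebra.Category.Grp.EpiMono
import Mathlib.Algebra.Category.Grp.Abelian
import Mathlib.Algebra.Category.Grp.FilteredColimits
import Mathlib.Algebra.Homology.ShortComplex.ModuleCat
import Mathlib.Algebra.Homology.ShortComplex.ExactFunctor
import Mathlib.CategoryTheory.Sites.Abelian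
import Mathlib.CategoryTheory.Abelian.GrothendieckAxioms.Sheaf

/-!
# Elementwise criteria in categories of sheaves of modules on a site

`C` is a site, `R` a sheaf of rings.  For a morphism `f : M ⟶ N` of sheaves of modules:
* `f` is an epimorphism iff sections of `N` lift locally (`epi_iff`);
* `f` is a monomorphism iff it is injective on sections (`mono_iff`);
* sections killed by `f` come from the kernel (`exists_kernel`).
-/

set_option autoImplicit false

universe u v w v₁ v₂ u₁ u₂ v₃ u₃ v₄ u₄

open CategoryTheory CategoryTheory.Limits Opposite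

namespace Groth.Agent.Gaga.H976.TM0

section Reflective

variable {A : Type u₁} [Category.{v₁} A] {B : Type u₂} [Category.{v₂} B]
  {C : Type u₃} [Category.{v₃} C]

/-- A functor out of a reflective subcategory preserves colimits of shape `J` if its composition
with the reflector does. -/
theorem preservesColimitsOfShape_of_reflective {L : A ⥤ B} {G : B ⥤ A} (adj : L ⊣ G)
    [IsIso adj.counit] (F : B ⥤ C) (J : Type u₄) [Category.{v₄} J] [HasColimitsOfShape J A]
    [PreservesColimitsOfShape J (L ⋙ F)] : PreservesColimitsOfShape J F where
  preservesColimit {K} := by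
    have : PreservesColimitsOfShape J L := adj.leftAdjoint_preservesColimits.preservesColimitsOfShape
    let e : (K ⋙ G) ⋙ L ≅ K := Functor.associator _ _ _ ≪≫
      Functor.isoWhiskerLeft K (asIso adj.counit) ≪≫ K.rightUnitor
    have : PreservesColimit ((K ⋙ G) ⋙ L) F := by
      refine preservesColimit_of_preserves_colimit_cocone
        (isColimitOfPreserves L (colimit.isColimit (K ⋙ G))) ?_
      exact isColimitOfPreserves (L ⋙ F) (colimit.isColimit (K ⋙ G))
    exact preservesColimit_of_iso_diagram F e

end Reflective

variable {C : Type u} [SmallCategory C] {J : GrothendieckTopology C} {R : Sheaf J RingCat.{u}}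

variable {M N : SheafOfModules.{u} R} (f : M ⟶ N)

/-- `toSheaf` preserves epimorphisms. -/
theorem epi_toSheaf [Epi f] : Epi ((SheafOfModules.toSheaf R).map f) := by
  have : PreservesColimitsOfShape WalkingSpan (presheafToSheaf J AddCommGrpCat.{u}) :=
    (CategoryTheory.sheafificationAdjunction J
      AddCommGrpCat.{u}).leftAdjoint_preservesColimits.preservesColimitsOfShape
  have : PreservesColimitsOfShape WalkingSpan
      (PresheafOfModules.sheafification.{u} (𝟙 R.obj) ⋙ SheafOfModules.toSheaf.{u} R) :=
    inferInstanceAs (PreservesColimitsOfShape WalkingSpan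
      (PresheafOfModules.toPresheaf _ ⋙ presheafToSheaf J AddCommGrpCat.{u}))
  have : PreservesColimitsOfShape WalkingSpan (SheafOfModules.toSheaf.{u} R) :=
    preservesColimitsOfShape_of_reflective
      (PresheafOfModules.sheafificationAdjunction.{u} (𝟙 R.obj)) _ WalkingSpan
  infer_instance


theorem balanced_sheaf (J : GrothendieckTopology C) : Balanced (Sheaf J AddCommGrpCat.{u}) :=
  inferInstance

theorem epi_iff_isLocallySurjective :
    Epi f ↔ Presheaf.IsLocallySurjective J ((PresheafOfModules.toPresheaf R.obj).map f.val) := by
  constructor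
  · intro _
    have h := epi_toSheaf f
    have hb := balanced_sheaf J
    exact (Sheaf.isLocallySurjective_iff_epi' AddCommGrpCat.{u}
      ((SheafOfModules.toSheaf R).map f)).2 h
  · intro h
    have h' : Sheaf.IsLocallySurjective ((SheafOfModules.toSheaf R).map f) := h
    have : Epi ((SheafOfModules.toSheaf R).map f) :=
      Sheaf.epi_of_isLocallySurjective _
    exact ⟨fun g h e => (SheafOfModules.toSheaf R).map_injective
      ((cancel_epi ((SheafOfModules.toSheaf R).map f)).1 (by
        rw [← Functor.map_comp, ← Functor.map_comp, e]))⟩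

/-- Epimorphism iff sections lift locally. -/
theorem epi_iff : Epi f ↔ ∀ (X : C) (t : N.val.obj (op X)), ∃ S : Sieve X, S ∈ J X ∧
    ∀ ⦃Y : C⦄ (g : Y ⟶ X), S.arrows g →
      ∃ s : M.val.obj (op Y), f.val.app (op Y) s = N.val.restrictₛₗ g.op t := by
  rw [epi_iff_isLocallySurjective]
  constructor
  · intro h X t
    exact ⟨_, h.imageSieve_mem (U := X) t, fun Y g hg => hg⟩
  · intro h
    refine ⟨fun {X} t => ?_⟩
    obtain ⟨S, hS, h⟩ := h X t
    exact J.superset_covering (fun Y g hg => h g hg) hS

/-- Monomorphism iff injective on sections. -/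
theorem mono_iff : Mono f ↔ ∀ X : Cᵒᵖ, Function.Injective (f.val.app X) := by
  constructor
  · intro _ X
    have : Mono ((SheafOfModules.evaluation R X).map f) := inferInstance
    exact (ModuleCat.mono_iff_injective _).1 this
  · intro h
    have : Mono f.val := PresheafOfModules.mono_of_injective (fun X => h X)
    exact (SheafOfModules.forget R).mono_of_mono_map this

instance evaluation_additive (X : Cᵒᵖ) : (SheafOfModules.evaluation R X).Additive where

/-- Sections killed by `f` come from the kernel. -/
theorem exists_kernel (X : Cᵒᵖ) (t : M.val.obj X) (ht : f.val.app X t = 0) :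
    ∃ k : (kernel f).val.obj X, (kernel.ι f).val.app X k = t := by
  let F := SheafOfModules.evaluation R X
  have h : (ShortComplex.mk (F.map (kernel.ι f)) (F.map f)
      (by rw [← F.map_comp, kernel.condition, F.map_zero])).Exact := by
    have h0 : (ShortComplex.mk (kernel.ι f) f (kernel.condition f)).Exact :=
      ShortComplex.exact_of_f_is_kernel _ (kernelIsKernel f)
    exact h0.map_of_mono_of_preservesKernel F inferInstance inferInstance
  exact (ShortComplex.moduleCat_exact_iff _).1 h t ht

end Groth.Agent.Gaga.H976.TM0
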