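import Mathlib.LinearAlgebra.TensorProduct.RightExactness
import Mathlib.LinearAlgebra.TensorProduct.Pi
import Mathlib.LinearAlgebra.TensorProduct.Tower
import Mathlib.RingTheory.TensorProduct.Basic

/-!
# Relations in a base change of a module
-/

set_option autoImplicit false

open TensorProduct

namespace Groth.Agent.Gaga.H976.TensRel

variable {A B N : Type*} [CommRing A] [CommRing B] [Algebra A B] [AddCommGroup N] [Module A N]
  {n : ℕ}

/-- Relations in a base change are generated by the relations. -/
theorem mem_span_of_sum_tmul_eq_zero {ι : Type*} (s : Fin n → N)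
    (hs : Submodule.span A (Set.range s) = ⊤) (r : ι → Fin n → A)
    (hr : ∀ c : Fin n → A, ∑ j, c j • s j = 0 → c ∈ Submodule.span A (Set.range r))
    (b : Fin n → B) (hb : ∑ j, b j ⊗ₜ[A] s j = 0) :
    b ∈ Submodule.span B (Set.range fun k => fun j => algebraMap A B (r k j)) := by
  classical
  let L : (Fin n → A) →ₗ[A] N := Fintype.linearCombination A s
  have hL : ∀ c, L c = ∑ j, c j • s j := fun c => Fintype.linearCombination_apply _ _ _
  have hLs : Function.Surjective L := by
    rw [← LinearMap.range_eq_top, Fintype.range_linearCombination, hs]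
  have hex : Function.Exact (LinearMap.ker L).subtype L := by
    rw [LinearMap.exact_iff, Submodule.range_subtype]
  have hex' := lTensor_exact B hex hLs
  let e : B ⊗[A] (Fin n → A) ≃ₗ[A] (Fin n → B) := TensorProduct.piScalarRight A A B (Fin n)
  have he : ∀ (x : B) (c : Fin n → A), e (x ⊗ₜ c) = fun j => c j • x := fun x c =>
    TensorProduct.piScalarRight_apply _ _ _ _ _
  have h1 : L.lTensor B (∑ j, b j ⊗ₜ[A] (Pi.single j 1 : Fin n → A)) = 0 := by
    rw [map_sum, ← hb]
    refine Finset.sum_congr rfl fun j _ => ?_
    rw [LinearMap.lTensor_tmul, hL]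
    congr 1
    rw [Finset.sum_eq_single j]
    · rw [Pi.single_eq_same, one_smul]
    · intro i _ hi
      rw [Pi.single_eq_of_ne hi, zero_smul]
    · intro h
      exact absurd (Finset.mem_univ j) h
  obtain ⟨t, ht⟩ := (hex' _).1 h1
  have h2 : e (∑ j, b j ⊗ₜ[A] (Pi.single j 1 : Fin n → A)) = b := by
    rw [map_sum]
    funext i
    rw [Finset.sum_apply, Finset.sum_eq_single i]
    · rw [he]
      change (Pi.single i 1 : Fin n → A) i • b i = b i
      rw [Pi.single_eq_same, one_smul]
    · intro j _ hj
      rw [he]
      change (Pi.single j 1 : Fin n → A) i • b j = 0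
      rw [Pi.single_eq_of_ne (Ne.symm hj), zero_smul]
    · intro h
      exact absurd (Finset.mem_univ i) h
  rw [← h2, ← ht]
  clear ht
  induction t with
  | zero => simp
  | add a c ha hc =>
    rw [map_add, map_add]
    exact Submodule.add_mem _ ha hc
  | tmul x k =>
    rw [LinearMap.lTensor_tmul, he]
    have hk : (k : Fin n → A) ∈ Submodule.span A (Set.range r) :=
      hr _ ((hL _).symm.trans k.2)
    have h3 : (fun j => algebraMap A B ((k : Fin n → A) j)) ∈
        Submodule.span B (Set.range fun k => fun j => algebraMap A B (r k j)) := by
      generalize (k : Fin n → A) = c at hk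
      induction hk using Submodule.span_induction with
      | mem c hc =>
        obtain ⟨k, rfl⟩ := hc
        exact Submodule.subset_span ⟨k, rfl⟩
      | zero =>
        have : (fun j => algebraMap A B ((0 : Fin n → A) j)) = 0 := funext fun j => map_zero _
        rw [this]
        exact Submodule.zero_mem _
      | add c d _ _ hc hd =>
        have : (fun j => algebraMap A B ((c + d) j)) =
          (fun j => algebraMap A B (c j)) + fun j => algebraMap A B (d j) :=
          funext fun j => map_add _ _ _
        rw [this]
        exact Submodule.add_mem _ hc hd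
      | smul a c _ hc =>
        have : (fun j => algebraMap A B ((a • c) j)) =
          algebraMap A B a • fun j => algebraMap A B (c j) :=
          funext fun j => map_mul _ _ _
        rw [this]
        exact Submodule.smul_mem _ _ hc
    have h4 : (fun j => (LinearMap.ker L).subtype k j • x) =
        x • fun j => algebraMap A B ((k : Fin n → A) j) := by
      funext j
      rw [Pi.smul_apply, smul_eq_mul, mul_comm]
      exact Algebra.smul_def _ _
    rw [h4]
    exact Submodule.smul_mem _ _ h3

end Groth.Agent.Gaga.H976.TensRel
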