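import Groth.Agent.Gaga.H976.FPS
import Groth.Agent.Gaga.H976.TensRel

/-!
# Closure properties of finite presentation

* `FPS.of_surjective`: quotient of a finitely presented module by a finitely generated submodule;
* `FPS.pull`: inverse images.
-/

set_option autoImplicit false
set_option linter.dupNamespace false

open CategoryTheory CategoryTheory.Limits TopologicalSpace Opposite

noncomputable section

namespace Groth.Agent.Gaga.H976.FPC

open Groth.Agent.Gaga.H975.ModSec Groth.Agent.Gaga.H986.Stalk Groth.Agent.Gaga.H976.Defs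
open Groth.Agent.Gaga.H986.Nak Groth.Agent.Gaga.H976.FPS Groth.Agent.Gaga.H986.Pull

section Quot

variable {T : TopCat.{0}} {R : TopCat.Sheaf CommRingCat.{0} T}

theorem Gen.of_surjective {N Q : Mod R} (π : N ⟶ Q) {W : Opens T} {ι : Type*} {s : ι → Sec N W}
    (hs : Gen N s) (hπ : ∀ y ∈ W, Function.Surjective (stMap π y)) :
    Gen Q (fun j => app π W (s j)) := by
  intro y hy
  have h1 := hs y hy
  rw [eq_top_iff]
  rintro t -
  obtain ⟨u, rfl⟩ := hπ y hy t
  have hu : u ∈ Submodule.span (StO R y) (Set.range fun i => gm N y W hy (s i)) := by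
    rw [h1]; trivial
  have h2 := Submodule.mem_map_of_mem (f := stMap π y) hu
  rw [Submodule.map_span, ← Set.range_comp] at h2
  have h3 : (stMap π y ∘ fun i => gm N y W hy (s i)) = fun i => gm Q y W hy (app π W (s i)) :=
    funext fun i => stMap_gm π y W hy (s i)
  rwa [h3] at h2

theorem FTAt.of_surjective {N Q : Mod R} (π : N ⟶ Q) {x : T} (h : FTAt N x)
    (hπ : ∀ y, Function.Surjective (stMap π y)) : FTAt Q x := by
  obtain ⟨W, hx, n, s, hs⟩ := h
  exact ⟨W, hx, n, _, Gen.of_surjective π hs fun y _ => hπ y⟩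

/-- The quotient of a finitely presented module by a finitely generated submodule is finitely
presented. -/
theorem FPS.of_surjective {N Q : Mod R} (π : N ⟶ Q) {x : T} (h : FPS N x) {V : Opens T}
    (hxV : x ∈ V) (hπ : ∀ y ∈ V, Function.Surjective (stMap π y)) {p : ℕ} (t : Fin p → Sec N V)
    (ht : ∀ (y : T) (hy : y ∈ V), LinearMap.ker (stMap π y) =
      Submodule.span (StO R y) (Set.range fun i => gm N y V hy (t i))) : FPS Q x := by
  obtain ⟨W, hxW, n, m, s, r, hg, hr⟩ := h
  -- express `t i` through the `s j` near `x`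
  have key : ∀ i : Fin p, ∃ (Z : Opens T) (_ : x ∈ Z) (hZ : Z ≤ W ⊓ V) (c : Fin n → O R Z),
      res N (hZ.trans inf_le_right) (t i) = ∑ j, c j • res N (hZ.trans inf_le_left) (s j) := by
    intro i
    obtain ⟨Z, hxZ, hZ, c, e⟩ := gen_iff.1 (hg.res (inf_le_left : W ⊓ V ≤ W)) x (W ⊓ V) le_rfl
      ⟨hxW, hxV⟩ (res N inf_le_right (t i))
    refine ⟨Z, hxZ, hZ, c, ?_⟩
    rw [res_res] at e
    rw [e]
    exact Finset.sum_congr rfl fun j _ => by rw [res_res]
  choose Z hxZ hZ a ha using key
  obtain ⟨Z', hxZ', hZ'WV, hZ'⟩ := exists_fin_inter Z hxZ (W ⊓ V) ⟨hxW, hxV⟩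
  have hW : Z' ≤ W := hZ'WV.trans inf_le_left
  have hV : Z' ≤ V := hZ'WV.trans inf_le_right
  let r' : Fin (m + p) → Fin n → O R Z' :=
    Fin.append (fun k j => resO hW (r k j)) (fun i j => resO (hZ' i) (a i j))
  refine ⟨Z', hxZ', n, m + p, fun j => app π Z' (res N hW (s j)), r',
    Gen.of_surjective π (hg.res hW) (fun y hy => hπ y (hV hy)), ?_⟩
  intro y hy c
  have h1 : ∑ j, c j • gm Q y Z' hy (app π Z' (res N hW (s j))) =
      stMap π y (∑ j, c j • gm N y W (hW hy) (s j)) := by
    rw [map_sum]
    refine Finset.sum_congr rfl fun j _ => ?_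
    rw [map_smul, ← stMap_gm, gm_res]
  have hta : ∀ i, gm N y V (hV hy) (t i) =
      ∑ j, gmO R y (Z i) (hZ' i hy) (a i j) • gm N y W (hW hy) (s j) := by
    intro i
    have := congrArg (gm N y (Z i) (hZ' i hy)) (ha i)
    rw [gm_res, map_sum] at this
    rw [this]
    refine Finset.sum_congr rfl fun j _ => ?_
    rw [gm_smul, gm_res]
  have hspan : Submodule.span (StO R y) (Set.range fun k => fun j => gmO R y Z' hy (r' k j)) =
      Submodule.span (StO R y) (Set.range fun k => fun j => gmO R y W (hW hy) (r k j)) ⊔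
      Submodule.span (StO R y) (Set.range fun i => fun j => gmO R y (Z i) (hZ' i hy) (a i j)) := by
    rw [← Submodule.span_union]
    congr 1
    ext f
    simp only [Set.mem_range, Set.mem_union]
    constructor
    · rintro ⟨k, rfl⟩
      refine Fin.addCases (fun k => ?_) (fun i => ?_) k
      · left
        refine ⟨k, funext fun j => ?_⟩

        have : r' (Fin.castAdd p k) j = resO hW (r k j) := by
          simp only [r', Fin.append_left]
        rw [this, gmO_resO]
      · right
        refine ⟨i, funext fun j => ?_⟩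
        have : r' (Fin.natAdd m i) j = resO (hZ' i) (a i j) := by
          simp only [r', Fin.append_right]
        rw [this, gmO_resO]
    · rintro (⟨k, rfl⟩ | ⟨i, rfl⟩)
      · refine ⟨Fin.castAdd p k, funext fun j => ?_⟩
        have : r' (Fin.castAdd p k) j = resO hW (r k j) := by
          simp only [r', Fin.append_left]
        rw [this, gmO_resO]
      · refine ⟨Fin.natAdd m i, funext fun j => ?_⟩
        have : r' (Fin.natAdd m i) j = resO (hZ' i) (a i j) := by
          simp only [r', Fin.append_right]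
        rw [this, gmO_resO]
  rw [h1, ← LinearMap.mem_ker, ht y (hV hy), hspan]
  -- the linear map `c ↦ ∑ c j s j`
  let L : (Fin n → StO R y) →ₗ[StO R y] St N y :=
    Fintype.linearCombination (StO R y) (fun j => gm N y W (hW hy) (s j))
  have hL : ∀ c, L c = ∑ j, c j • gm N y W (hW hy) (s j) := fun c =>
    Fintype.linearCombination_apply _ _ _
  have hker : Submodule.span (StO R y) (Set.range fun k => fun j => gmO R y W (hW hy) (r k j)) =
      LinearMap.ker L := by
    ext c
    rw [← hr y (hW hy) c, LinearMap.mem_ker, hL]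
  have himg : Submodule.span (StO R y) (Set.range fun i => gm N y V (hV hy) (t i)) =
      Submodule.map L (Submodule.span (StO R y)
        (Set.range fun i => fun j => gmO R y (Z i) (hZ' i hy) (a i j))) := by
    rw [Submodule.map_span, ← Set.range_comp]
    congr 2
    funext i
    rw [hta i]
    exact (hL _).symm
  rw [← hL, himg, hker, sup_comm, ← Submodule.comap_map_eq, Submodule.mem_comap]

end Quot

section Pull

variable {T T1 : TopCat.{0}} {f : T1 ⟶ T} {R : TopCat.Sheaf CommRingCat.{0} T}
  {R1 : TopCat.Sheaf CommRingCat.{0} T1}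
  [(Opens.map f).IsContinuous (Opens.grothendieckTopology T) (Opens.grothendieckTopology T1)]
  {φ : ringSheaf R ⟶ ((Opens.map f).sheafPushforwardContinuous RingCat.{0}
    (Opens.grothendieckTopology T) (Opens.grothendieckTopology T1)).obj (ringSheaf R1)}
  {L : Mod R ⥤ Mod R1} (adj : L ⊣ push φ)

include adj in
theorem Gen.pull {M : Mod R} {W : Opens T} {n : ℕ} {s : Fin n → Sec M W} (hs : Gen M s) :
    Gen (L.obj M) (fun j => us adj W (s j)) := by
  intro y hy
  rw [eq_top_iff, ← span_range_can adj M y, Submodule.span_le]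
  rintro _ ⟨t, rfl⟩
  have ht : t ∈ Submodule.span (StO R (f y)) (Set.range fun i => gm M (f y) W hy (s i)) := by
    rw [hs (f y) hy]; trivial
  induction ht using Submodule.span_induction with
  | mem t ht =>
    obtain ⟨i, rfl⟩ := ht
    refine Submodule.subset_span ⟨i, ?_⟩
    exact (can_gm adj M y W hy (s i)).symm
  | zero => rw [map_zero]; exact Submodule.zero_mem _
  | add a b _ _ ha hb => rw [map_add]; exact Submodule.add_mem _ ha hb
  | smul a t _ ht => rw [can_smul]; exact Submodule.smul_mem _ _ ht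

open TensorProduct in
include adj in
/-- The inverse image of a finitely presented module is finitely presented. -/
theorem FPS.pull {M : Mod R} {y : T1} (h : FPS M (f y)) : FPS (L.obj M) y := by
  obtain ⟨W, hx, n, m, s, r, hg, hr⟩ := h
  refine ⟨pre f W, hx, n, m, fun j => us adj W (s j), fun k j => cm φ W (r k j),
    Gen.pull adj hg, ?_⟩
  intro z hz c
  letI := stAlg φ z
  have h1 : ∀ c : Fin n → StO R1 z, ∑ j, c j • gm (L.obj M) z (pre f W) hz (us adj W (s j)) =
      stEquiv adj M z (∑ j, c j ⊗ₜ[StO R (f z)] gm M (f z) W hz (s j)) := by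
    intro c
    rw [map_sum]
    refine Finset.sum_congr rfl fun j _ => ?_
    rw [stEquiv_tmul, can_gm]
  have h2 : (fun k => fun j => gmO R1 z (pre f W) hz (cm φ W (r k j))) =
      fun k => fun j => algebraMap (StO R (f z)) (StO R1 z) (gmO R (f z) W hz (r k j)) := by
    funext k j
    exact (stR_gmO φ z W hz (r k j)).symm
  rw [h1, LinearEquiv.map_eq_zero_iff, h2]
  constructor
  · intro hc
    exact TensRel.mem_span_of_sum_tmul_eq_zero _ (hg (f z) hz) _ (fun c hc => (hr (f z) hz c).1 hc)
      c hc
  · intro hc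
    let Λ : (Fin n → StO R1 z) →ₗ[StO R1 z] (StO R1 z ⊗[StO R (f z)] St M (f z)) :=
      Fintype.linearCombination (StO R1 z) (fun j => (1 : StO R1 z) ⊗ₜ[StO R (f z)] gm M (f z) W hz (s j))
    have hΛ : ∀ c, Λ c = ∑ j, c j ⊗ₜ[StO R (f z)] gm M (f z) W hz (s j) := fun c => by
      rw [Fintype.linearCombination_apply]
      refine Finset.sum_congr rfl fun j _ => ?_
      rw [TensorProduct.smul_tmul', smul_eq_mul, mul_one]
    rw [← hΛ]
    suffices h0 : Submodule.span (StO R1 z) (Set.range fun k => fun j =>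
        algebraMap (StO R (f z)) (StO R1 z) (gmO R (f z) W hz (r k j))) ≤ LinearMap.ker Λ from h0 hc
    rw [Submodule.span_le]
    rintro _ ⟨k, rfl⟩
    rw [SetLike.mem_coe, LinearMap.mem_ker, hΛ]
    have h3 := (hr (f z) hz _).2 (Submodule.subset_span ⟨k, rfl⟩)
    have h4 := congrArg (fun t => (1 : StO R1 z) ⊗ₜ[StO R (f z)] t) h3
    simp only [TensorProduct.tmul_sum, TensorProduct.tmul_zero] at h4
    rw [← h4]
    refine Finset.sum_congr rfl fun j _ => ?_
    change (algebraMap (StO R (f z)) (StO R1 z) (gmO R (f z) W hz (r k j))) ⊗ₜ[StO R (f z)] gm M (f z) W hz (s j) =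
      (1 : StO R1 z) ⊗ₜ[StO R (f z)] (gmO R (f z) W hz (r k j) • gm M (f z) W hz (s j))
    rw [TensorProduct.tmul_smul, TensorProduct.smul_tmul', Algebra.smul_def, mul_one]

include adj in
theorem isFinitePresentation_pull {M : Mod R} (h : M.IsFinitePresentation) :
    (L.obj M).IsFinitePresentation := by
  rw [isFinitePresentation_iff] at h ⊢
  exact fun y => FPS.pull adj (h (f y))

end Pull

end Groth.Agent.Gaga.H976.FPC
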