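import Groth.Agent.Gaga.H625.StIdeal
import Mathlib.AlgebraicGeometry.Morphisms.Proper
import Mathlib.AlgebraicGeometry.IdealSheaf.Subscheme

/-!
# The ideal of the image of a closed subscheme which `q` embeds

`exists_kernel_ideal`: `q : E ⟶ P` proper, injective on `V(I)` and `O_P → O_E / I` surjective on the
stalks at points of `V(I)`; then there is an ideal sheaf `K` of `P` with
`K_{q z} = (q^♯)⁻¹ (I_z)` for `z ∈ V(I)` and with support in `q (V(I))`.
-/

set_option autoImplicit false

open CategoryTheory AlgebraicGeometry TopologicalSpace Opposite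

noncomputable section

namespace Groth.Agent.Gaga.H976.KerIdeal

open Groth.Agent.Gaga.H976.Defs Groth.Agent.Gaga.H625.StIdeal

theorem stalkMap_comp_apply {X Y Z : Scheme.{0}} (f : X ⟶ Y) (g : Y ⟶ Z) (x : X)
    (b : Z.presheaf.stalk (g (f x))) :
    ((f ≫ g).stalkMap x).hom b = (f.stalkMap x).hom ((g.stalkMap (f x)).hom b) := by
  have h := Scheme.Hom.stalkMap_comp f g x
  exact congr($(h).hom b)

theorem exists_kernel_ideal {E P : Scheme.{0}} (q : E ⟶ P) [IsProper q] (I : E.IdealSheafData)
    (hinj : Set.InjOn q (I.support : Set E))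
    (hs : ∀ z ∈ I.support, ∀ a : E.presheaf.stalk z, ∃ b : P.presheaf.stalk (q z),
        a - (q.stalkMap z).hom b ∈ stIdeal I z) :
    ∃ K : P.IdealSheafData,
      (∀ z ∈ I.support, ∀ b : P.presheaf.stalk (q z),
        (q.stalkMap z).hom b ∈ stIdeal I z ↔ b ∈ stIdeal K (q z)) ∧
      ∀ x ∈ K.support, ∃ z ∈ I.support, q z = x := by
  let i := I.subschemeι
  have hrange : Set.range i = (I.support : Set E) := I.range_subschemeι
  have hker : i.ker = I := I.ker_subschemeι
  have hst : ∀ w, stIdeal I (i w) = RingHom.ker (i.stalkMap w).hom := by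
    intro w
    rw [← stIdeal_ker i w, hker]
  have hmem : ∀ w, i w ∈ I.support := by
    intro w
    have : i w ∈ (I.support : Set E) := hrange ▸ Set.mem_range_self w
    exact this
  let j := i ≫ q
  have hinj' : Function.Injective j := by
    intro a b hab
    apply i.isClosedEmbedding.injective
    exact hinj (hmem a) (hmem b) (by
      have h1 : j a = q (i a) := rfl
      have h2 : j b = q (i b) := rfl
      rw [← h1, ← h2, hab])
  have hj : IsClosedImmersion j :=
    { isClosedEmbedding := .of_continuous_injective_isClosedMap j.continuous hinj'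
        j.isClosedMap
      stalkMap_surjective := by
        intro w c
        obtain ⟨a, ha⟩ := i.stalkMap_surjective w c
        obtain ⟨b, hb⟩ := hs (i w) (hmem w) a
        refine ⟨b, ?_⟩
        rw [hst, RingHom.mem_ker, map_sub, sub_eq_zero] at hb
        exact (stalkMap_comp_apply i q w b).trans (hb.symm.trans ha) }
  refine ⟨j.ker, ?_, ?_⟩
  · intro z hz b
    have hz' : z ∈ Set.range i := hrange ▸ hz
    obtain ⟨w, rfl⟩ := hz'
    have h1 : stIdeal j.ker (j w) = RingHom.ker (j.stalkMap w).hom := stIdeal_ker j w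
    have h2 : b ∈ stIdeal j.ker (q (i w)) ↔ (j.stalkMap w).hom b = 0 := by
      rw [← RingHom.mem_ker, ← h1]
      rfl
    rw [h2, hst, RingHom.mem_ker, stalkMap_comp_apply i q w b]
  · intro x hx
    have h1 : (j.ker.support : Set P) = Set.range j := by
      rw [Scheme.Hom.support_ker]
      exact j.isClosedEmbedding.isClosed_range.closure_eq
    have hx' : x ∈ Set.range j := h1 ▸ hx
    obtain ⟨w, rfl⟩ := hx'
    exact ⟨i w, hmem w, rfl⟩

end Groth.Agent.Gaga.H976.KerIdeal
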