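import Groth.Agent.Gaga.H976.TM0

/-!
# Finite free sheaves of modules in coordinates, generating sections and presentations elementwise
-/

set_option autoImplicit false

universe u

open CategoryTheory CategoryTheory.Limits Opposite

namespace Groth.Agent.Gaga.H976.TM1

open Groth.Agent.Gaga.H976.TM0

variable {C : Type u} [SmallCategory C] {J : GrothendieckTopology C} {R : Sheaf J RingCat.{u}}

/-- The value of a section at an object, as an element of the module of sections. -/
def sec {M : SheafOfModules.{u} R} (s : M.sections) (X : Cᵒᵖ) : M.val.obj X := s.1 X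

lemma sec_map {M : SheafOfModules.{u} R} (s : M.sections) {X Y : Cᵒᵖ} (f : X ⟶ Y) :
    M.val.restrictₛₗ f (sec s X) = sec s Y := s.2 f

lemma app_res {M N : SheafOfModules.{u} R} (f : M ⟶ N) {X Y : Cᵒᵖ} (g : X ⟶ Y)
    (t : M.val.obj X) : f.val.app Y (M.val.restrictₛₗ g t) = N.val.restrictₛₗ g (f.val.app X t) :=
  PresheafOfModules.naturality_apply f.val g t

lemma app_smul {M N : SheafOfModules.{u} R} (f : M ⟶ N) {X : Cᵒᵖ} (r : R.obj.obj X)
    (t : M.val.obj X) : f.val.app X (r • t) = r • (show N.val.obj X from f.val.app X t) :=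
  (f.val.app X).hom.map_smul r t

lemma app_sum {M N : SheafOfModules.{u} R} (f : M ⟶ N) {X : Cᵒᵖ} {ι : Type*} (s : Finset ι)
    (t : ι → M.val.obj X) : f.val.app X (∑ i ∈ s, t i) = ∑ i ∈ s, (show N.val.obj X from f.val.app X (t i)) :=
  map_sum (f.val.app X).hom t s

variable (R) in
/-- The coordinate map `R^I → R`. -/
noncomputable def coord {I : Type u} [DecidableEq I] (j : I) :
    SheafOfModules.free (R := R) I ⟶ SheafOfModules.unit R :=
  Cofan.IsColimit.desc (SheafOfModules.isColimitFreeCofan I)
    (fun i => if i = j then 𝟙 _ else 0)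

lemma ιFree_coord {I : Type u} [DecidableEq I] (i j : I) :
    SheafOfModules.ιFree (R := R) i ≫ coord R j = if i = j then 𝟙 _ else 0 :=
  Cofan.IsColimit.fac (SheafOfModules.isColimitFreeCofan I) _ _

lemma free_hom_ext {I : Type u} {M : SheafOfModules.{u} R} (f g : SheafOfModules.free I ⟶ M)
    (h : ∀ i, SheafOfModules.ιFree i ≫ f = SheafOfModules.ιFree i ≫ g) : f = g :=
  Cofan.IsColimit.hom_ext (SheafOfModules.isColimitFreeCofan I) _ _ h

lemma sum_coord {I : Type u} [DecidableEq I] [Fintype I] :
    ∑ j : I, coord R j ≫ SheafOfModules.ιFree j = 𝟙 (SheafOfModules.free (R := R) I) := by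
  refine free_hom_ext _ _ fun i => ?_
  rw [Preadditive.comp_sum, Category.comp_id]
  rw [Finset.sum_eq_single i]
  · rw [← Category.assoc, ιFree_coord, if_pos rfl, Category.id_comp]
  · intro j _ hj
    rw [← Category.assoc, ιFree_coord, if_neg (Ne.symm hj), zero_comp]
  · intro h
    exact absurd (Finset.mem_univ i) h

/-- Elements of the unit sheaf are ring elements. -/
lemma map_unit {M : SheafOfModules.{u} R} (f : SheafOfModules.unit R ⟶ M) (X : Cᵒᵖ)
    (r : R.obj.obj X) :
    f.val.app X (show (SheafOfModules.unit R).val.obj X from r) =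
      r • sec (M.unitHomEquiv f) X := by
  have h := (f.val.app X).hom.map_smul r (show (SheafOfModules.unit R).val.obj X from (1 : R.obj.obj X))
  have h1 : r • (show (SheafOfModules.unit R).val.obj X from (1 : R.obj.obj X)) =
    (show (SheafOfModules.unit R).val.obj X from r) := mul_one r
  rw [h1] at h
  exact h

lemma sum_val_app {M N : SheafOfModules.{u} R} {ι : Type*} (s : Finset ι) (f : ι → (M ⟶ N))
    (X : Cᵒᵖ) (t : M.val.obj X) :
    (∑ i ∈ s, f i).val.app X t = ∑ i ∈ s, (f i).val.app X t := by
  classical
  induction s using Finset.induction_on with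
  | empty => simp; rfl
  | insert a s ha ih =>
    rw [Finset.sum_insert ha, Finset.sum_insert ha, ← ih]
    rfl

/-- coordinates of an element of a finite free module -/
noncomputable def co {I : Type u} [DecidableEq I] {X : Cᵒᵖ}
    (t : (SheafOfModules.free (R := R) I).val.obj X) (j : I) : R.obj.obj X :=
  (coord R j).val.app X t

lemma map_free {I : Type u} [DecidableEq I] [Fintype I] {M : SheafOfModules.{u} R}
    (f : SheafOfModules.free (R := R) I ⟶ M) (X : Cᵒᵖ)
    (t : (SheafOfModules.free (R := R) I).val.obj X) :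
    f.val.app X t = ∑ j, co t j • sec (M.freeHomEquiv f j) X := by
  have h : f = ∑ j : I, coord R j ≫ SheafOfModules.ιFree j ≫ f := by
    conv_lhs => rw [← Category.id_comp f, ← sum_coord, Preadditive.sum_comp]
    simp
  conv_lhs => rw [h, sum_val_app]
  refine Finset.sum_congr rfl fun j _ => ?_
  change (SheafOfModules.ιFree j ≫ f).val.app X ((coord R j).val.app X t) = _
  exact map_unit _ _ _

/-- The element of the finite free module with given coordinates. -/
noncomputable def ofCo {I : Type u} [Fintype I] {X : Cᵒᵖ} (c : I → R.obj.obj X) :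
    (SheafOfModules.free (R := R) I).val.obj X :=
  ∑ j, c j • sec (SheafOfModules.freeSection (R := R) j) X

lemma map_ofCo {I : Type u} [Fintype I] {M : SheafOfModules.{u} R}
    (f : SheafOfModules.free (R := R) I ⟶ M) (X : Cᵒᵖ) (c : I → R.obj.obj X) :
    f.val.app X (ofCo c) = ∑ j, c j • sec (M.freeHomEquiv f j) X := by
  unfold ofCo
  rw [map_sum]
  refine Finset.sum_congr rfl fun j _ => ?_
  exact (f.val.app X).hom.map_smul (c j) _

lemma co_ofCo {I : Type u} [DecidableEq I] [Fintype I] {X : Cᵒᵖ} (c : I → R.obj.obj X) (i : I) :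
    co (ofCo c) i = c i := by
  unfold co
  rw [map_ofCo]
  have h : ∀ j : I, c j • sec ((SheafOfModules.unit R).freeHomEquiv (coord R i) j) X =
      if j = i then (show (SheafOfModules.unit R).val.obj X from c j) else 0 := by
    intro j
    have h2 : ((SheafOfModules.unit R).freeHomEquiv (coord R i) j) =
      (SheafOfModules.unit R).unitHomEquiv (SheafOfModules.ιFree j ≫ coord R i) := rfl
    rw [h2, ιFree_coord]
    split_ifs with hj
    · exact mul_one (c j)
    · exact mul_zero (c j)
  refine (Finset.sum_congr rfl fun j _ => h j).trans ?_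
  exact (Finset.sum_ite_eq' Finset.univ i _).trans (if_pos (Finset.mem_univ i))

lemma ofCo_co {I : Type u} [DecidableEq I] [Fintype I] {X : Cᵒᵖ}
    (t : (SheafOfModules.free (R := R) I).val.obj X) : ofCo (co t) = t := by
  have h := map_free (𝟙 (SheafOfModules.free (R := R) I)) X t
  exact h.symm

end Groth.Agent.Gaga.H976.TM1
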