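import Groth.Agent.Gaga.H976.TM1

/-!
# Finite presentations of sheaves of modules on a site, elementwise

* `Gen s`: the sections `s i` generate locally;
* `Rel s r`: the `r k` are relations between the `s i` and generate them locally;
* `epi_iff_gen`, `exists_rel` and `presentation_of_gen_rel`: comparison with Mathlib's
  `GeneratingSections` and `Presentation`.
-/

set_option autoImplicit false

universe u

open CategoryTheory CategoryTheory.Limits Opposite

namespace Groth.Agent.Gaga.H976.TM2

open Groth.Agent.Gaga.H976.TM0 Groth.Agent.Gaga.H976.TM1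

variable {C : Type u} [SmallCategory C] {J : GrothendieckTopology C} {R : Sheaf J RingCat.{u}}

/-- The sections `s i` generate `M` locally. -/
def Gen {M : SheafOfModules.{u} R} {I : Type u} [Fintype I] (s : I → M.sections) : Prop :=
  ∀ (X : C) (t : M.val.obj (op X)), ∃ S : Sieve X, S ∈ J X ∧
    ∀ ⦃Y : C⦄ (g : Y ⟶ X), S.arrows g →
      ∃ c : I → R.obj.obj (op Y), M.val.restrictₛₗ g.op t = ∑ j, c j • sec (s j) (op Y)

theorem epi_iff_gen {M : SheafOfModules.{u} R} {I : Type u} [Fintype I] (s : I → M.sections) :
    Epi (M.freeHomEquiv.symm s) ↔ Gen s := by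
  classical
  rw [epi_iff]
  refine forall_congr' fun X => forall_congr' fun t => exists_congr fun S => and_congr_right fun _ =>
    forall_congr' fun Y => forall_congr' fun g => imp_congr_right fun _ => ?_
  constructor
  · rintro ⟨a, ha⟩
    refine ⟨co a, ?_⟩
    rw [← ha, map_free]
    simp only [Equiv.apply_symm_apply]
  · rintro ⟨c, hc⟩
    refine ⟨ofCo c, ?_⟩
    rw [hc, map_ofCo]
    simp only [Equiv.apply_symm_apply]

/-- Compatible families of elements of the sheaf of rings. -/
abbrev RSec (R : Sheaf J RingCat.{u}) := (SheafOfModules.unit R).sections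

/-- The value of a compatible family of ring elements. -/
def rsec (r : RSec R) (X : Cᵒᵖ) : R.obj.obj X := r.1 X

lemma rsec_map (r : RSec R) {X Y : Cᵒᵖ} (f : X ⟶ Y) : R.obj.map f (rsec r X) = rsec r Y := r.2 f

/-- The `r k` are relations among the `s i`, and generate all relations locally. -/
def Rel {M : SheafOfModules.{u} R} {I K : Type u} [Fintype I] [Fintype K] (s : I → M.sections)
    (r : K → I → RSec R) : Prop :=
  (∀ (k : K) (X : Cᵒᵖ), ∑ j, rsec (r k j) X • sec (s j) X = 0) ∧
  ∀ (X : C) (c : I → R.obj.obj (op X)), ∑ j, c j • sec (s j) (op X) = 0 →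
    ∃ S : Sieve X, S ∈ J X ∧ ∀ ⦃Y : C⦄ (g : Y ⟶ X), S.arrows g →
      ∃ d : K → R.obj.obj (op Y), ∀ j, R.obj.map g.op (c j) = ∑ k, d k * rsec (r k j) (op Y)

lemma co_map {I : Type u} [DecidableEq I] {X Y : Cᵒᵖ} (g : X ⟶ Y)
    (t : (SheafOfModules.free (R := R) I).val.obj X) (j : I) :
    co ((SheafOfModules.free (R := R) I).val.restrictₛₗ g t) j = R.obj.map g (co t j) :=
  PresheafOfModules.naturality_apply (coord R j).val g t

lemma co_sum {I K : Type u} [DecidableEq I] [Fintype K] {X : Cᵒᵖ}
    (d : K → R.obj.obj X) (t : K → (SheafOfModules.free (R := R) I).val.obj X) (j : I) :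
    co (∑ k, d k • t k) j = ∑ k, d k * co (t k) j := by
  have h := map_sum ((coord R j).val.app X).hom (fun k => d k • t k) Finset.univ
  refine h.trans (Finset.sum_congr rfl fun k _ => ?_)
  exact ((coord R j).val.app X).hom.map_smul (d k) (t k)

theorem exists_rel {M : SheafOfModules.{u} R} (P : M.Presentation) [Fintype P.generators.I]
    [Fintype P.relations.I] :
    ∃ r : P.relations.I → P.generators.I → RSec R, Rel P.generators.s r := by
  classical
  let q : P.relations.I → (SheafOfModules.free (R := R) P.generators.I).sections :=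
    fun k => SheafOfModules.sectionsMap (kernel.ι P.generators.π) (P.relations.s k)
  refine ⟨fun k j => SheafOfModules.sectionsMap (coord R j) (q k), ?_, ?_⟩
  · intro k X
    have h1 := map_free P.generators.π X (sec (q k) X)
    have h2 : P.generators.π.val.app X (sec (q k) X) =
        (kernel.ι P.generators.π ≫ P.generators.π).val.app X (sec (P.relations.s k) X) := rfl
    rw [h2, kernel.condition] at h1
    refine Eq.trans ?_ h1.symm
    simp only [SheafOfModules.GeneratingSections.π, Equiv.apply_symm_apply]
    rfl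
  · intro X c hc
    have h1 : P.generators.π.val.app (op X) (ofCo c) = 0 := by
      rw [map_ofCo]
      simpa only [SheafOfModules.GeneratingSections.π, Equiv.apply_symm_apply] using hc
    obtain ⟨k0, hk0⟩ := exists_kernel P.generators.π (op X) (ofCo c) h1
    have hgen : Gen P.relations.s := (epi_iff_gen _).1 P.relations.epi
    obtain ⟨S, hS, h⟩ := hgen X k0
    refine ⟨S, hS, fun Y g hg => ?_⟩
    obtain ⟨d, hd⟩ := h g hg
    refine ⟨d, fun j => ?_⟩
    have h3 : (SheafOfModules.free (R := R) P.generators.I).val.restrictₛₗ g.op (ofCo c) =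
        ∑ k, d k • sec (q k) (op Y) := by
      rw [← hk0, ← app_res, hd, app_sum]
      refine Finset.sum_congr rfl fun k _ => ?_
      exact app_smul _ _ _
    have h4 := congrArg (fun t => co t j) h3
    simp only [co_map, co_ofCo, co_sum] at h4
    exact h4


/-- The morphism `R → R^I` with given coordinates. -/
noncomputable def relHom {I : Type u} [Fintype I] (r : I → RSec R) :
    SheafOfModules.unit R ⟶ SheafOfModules.free (R := R) I :=
  ∑ j, (SheafOfModules.unit R).unitHomEquiv.symm (r j) ≫ SheafOfModules.ιFree j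

lemma relHom_comp {I : Type u} [Fintype I] (r : I → RSec R) {M : SheafOfModules.{u} R}
    (f : SheafOfModules.free (R := R) I ⟶ M) (X : Cᵒᵖ) :
    sec (M.unitHomEquiv (relHom r ≫ f)) X =
      ∑ j, rsec (r j) X • sec (M.freeHomEquiv f j) X := by
  have h1 : sec (M.unitHomEquiv (relHom r ≫ f)) X =
      (relHom r ≫ f).val.app X (show (SheafOfModules.unit R).val.obj X from (1 : R.obj.obj X)) :=
    rfl
  rw [h1]
  have h2 : relHom r ≫ f =
      ∑ j, (SheafOfModules.unit R).unitHomEquiv.symm (r j) ≫ SheafOfModules.ιFree j ≫ f := by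
    simp only [relHom, Preadditive.sum_comp, Category.assoc]
  rw [h2, sum_val_app]
  refine Finset.sum_congr rfl fun j _ => ?_
  change (SheafOfModules.ιFree j ≫ f).val.app X
    (((SheafOfModules.unit R).unitHomEquiv.symm (r j)).val.app X
      (show (SheafOfModules.unit R).val.obj X from (1 : R.obj.obj X))) = _
  have h3 : ((SheafOfModules.unit R).unitHomEquiv.symm (r j)).val.app X
      (show (SheafOfModules.unit R).val.obj X from (1 : R.obj.obj X)) =
      (show (SheafOfModules.unit R).val.obj X from rsec (r j) X) := by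
    have h4 : (SheafOfModules.unit R).unitHomEquiv
      ((SheafOfModules.unit R).unitHomEquiv.symm (r j)) = r j := Equiv.apply_symm_apply _ _
    exact congrArg (fun t : RSec R => t.1 X) h4
  rw [h3]
  exact map_unit _ _ _

lemma co_relHom {I : Type u} [DecidableEq I] [Fintype I] (r : I → RSec R) (X : Cᵒᵖ) (j : I) :
    co (sec ((SheafOfModules.free (R := R) I).unitHomEquiv (relHom r)) X) j = rsec (r j) X := by
  have h := relHom_comp r (𝟙 (SheafOfModules.free (R := R) I)) X
  rw [Category.comp_id] at h
  rw [h]
  exact co_ofCo (fun j => rsec (r j) X) j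

theorem presentation_of_gen_rel {M : SheafOfModules.{u} R} {I K : Type u} [Fintype I] [Fintype K]
    (s : I → M.sections) (r : K → I → RSec R) (hs : Gen s) (hr : Rel s r) :
    ∃ P : M.Presentation, P.IsFinite := by
  classical
  have hepi : Epi (M.freeHomEquiv.symm s) := (epi_iff_gen s).2 hs
  let σ : M.GeneratingSections := ⟨I, s, hepi⟩
  have hπ : ∀ k, relHom (r k) ≫ σ.π = 0 := by
    intro k
    apply M.unitHomEquiv.injective
    apply Subtype.ext
    funext X
    refine (relHom_comp (r k) σ.π X).trans ?_
    simp only [SheafOfModules.GeneratingSections.π, Equiv.apply_symm_apply]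
    exact hr.1 k X
  let q : K → (kernel σ.π).sections :=
    fun k => (kernel σ.π).unitHomEquiv (kernel.lift σ.π (relHom (r k)) (hπ k))
  have hq : ∀ k X, (kernel.ι σ.π).val.app X (sec (q k) X) =
      sec ((SheafOfModules.free (R := R) I).unitHomEquiv (relHom (r k))) X := by
    intro k X
    have h : kernel.lift σ.π (relHom (r k)) (hπ k) ≫ kernel.ι σ.π = relHom (r k) :=
      kernel.lift_ι _ _ _
    conv_rhs => rw [← h]
    rfl
  have hgen : Gen q := by
    intro X t
    have h0 : ∑ j, co ((kernel.ι σ.π).val.app (op X) t) j • sec (s j) (op X) = 0 := by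
      have h1 := map_free σ.π (op X) ((kernel.ι σ.π).val.app (op X) t)
      have h2 : σ.π.val.app (op X) ((kernel.ι σ.π).val.app (op X) t) =
        (kernel.ι σ.π ≫ σ.π).val.app (op X) t := rfl
      rw [h2, kernel.condition] at h1
      simp only [SheafOfModules.GeneratingSections.π, Equiv.apply_symm_apply] at h1
      exact h1.symm
    obtain ⟨S, hS, h⟩ := hr.2 X _ h0
    refine ⟨S, hS, fun Y g hg => ?_⟩
    obtain ⟨d, hd⟩ := h g hg
    refine ⟨d, ?_⟩
    have hmono : Function.Injective ((kernel.ι σ.π).val.app (op Y)) :=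
      (mono_iff (kernel.ι σ.π)).1 inferInstance (op Y)
    apply hmono
    rw [app_res, app_sum]
    rw [← ofCo_co ((SheafOfModules.free (R := R) I).val.restrictₛₗ g.op
      ((kernel.ι σ.π).val.app (op X) t)),
      ← ofCo_co (∑ k, (show (SheafOfModules.free (R := R) I).val.obj (op Y) from
        (kernel.ι σ.π).val.app (op Y) (d k • sec (q k) (op Y))))]
    congr 1
    funext j
    rw [co_map, hd j]
    have h5 : ∀ k, (show (SheafOfModules.free (R := R) I).val.obj (op Y) from
        (kernel.ι σ.π).val.app (op Y) (d k • sec (q k) (op Y))) =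
        d k • sec ((SheafOfModules.free (R := R) I).unitHomEquiv (relHom (r k))) (op Y) := by
      intro k
      rw [← hq k (op Y)]
      exact app_smul _ _ _
    rw [Finset.sum_congr rfl fun k _ => h5 k, co_sum]
    exact (Finset.sum_congr rfl fun k _ => by rw [co_relHom]).symm
  have hepi' : Epi ((kernel σ.π).freeHomEquiv.symm q) := (epi_iff_gen q).2 hgen
  let τ : (kernel σ.π).GeneratingSections := ⟨K, q, hepi'⟩
  refine ⟨⟨σ, τ⟩, ⟨?_, ?_⟩⟩
  · exact ⟨inferInstanceAs (Finite I)⟩
  · exact ⟨inferInstanceAs (Finite K)⟩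

end Groth.Agent.Gaga.H976.TM2
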