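import Groth.Agent.Gaga.H976.IdealAt
import Groth.Agent.Gaga.H976.KerIdeal
import Groth.Agent.Gaga.H127.PushStalk
import Groth.Agent.Gaga.H217.FpPush
import Groth.Agent.Gaga.H940.ThetaBij
import Groth.Agent.Gaga.H980.PowFam
import Groth.Agent.Gaga.H297.HolMod
import Groth.Agent.Gaga.H162.PT
import Groth.Agent.Gaga.H416.AlgQ
import Groth.Agent.An.H871.Basic

/-!
# The comparison map of a Chow covering

`exists_theta`: with `p : E ⟶ X`, `q : E ⟶ P` as in Chow's lemma for the closed subscheme `V(I)` of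
`X`, every finitely presented `N` killed by `I` has a map `θ : N ⟶ P` to an algebraic sheaf which is
bijective on the stalks outside `V(I) \ U`.
-/

set_option autoImplicit false

open CategoryTheory AlgebraicGeometry TopologicalSpace Opposite

noncomputable section

namespace Groth.Agent.Gaga.H976.Theta

open Groth.Agent.Gaga.H975.ModSec Groth.Agent.Gaga.H986.Stalk Groth.Agent.Gaga.H986.Pull
open Groth.Agent.Gaga.H976.Defs Groth.Agent.Gaga.H976.Defs2 Groth.Agent.Gaga.H976.Quot
open Groth.Agent.Gaga.H986.Nak Groth.Agent.Gaga.H976.FPS Groth.Agent.Gaga.H976.IdealAt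
open Groth.Agent.Gaga.H980.PowFam (openFam_powFam quot_isFinitePresentation sub_isFiniteType)
open Groth.Agent.Gaga.H297.HolMod (hol_surjective_mod hol_kernel_mod)
open Groth.Agent.Gaga.H162.PT Groth.Agent.Gaga.H416.AlgQ

/-- The points over the support. -/
def suppPts {X : Scheme.{0}} [X.Over An.SC] (I : X.IdealSheafData) : Set (An.top X) :=
  {y | An.Pts.pt y ∈ I.support}

theorem isClosed_suppPts {X : Scheme.{0}} [X.Over An.SC] (I : X.IdealSheafData) :
    IsClosed (suppPts I) :=
  I.support.isClosed.preimage An.Pts.continuous_pt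

theorem suppIn_of_kills {X : Scheme.{0}} [X.Over An.SC] (I : X.IdealSheafData) (N : An.AnMod X)
    (h : Kills I N) : SuppIn (I.support : Set X) N := by
  intro x hx
  have h1 : (1 : StO (An.hol X) x) ∈ idealAt I x := by
    rw [idealAt_eq_top I x hx]; trivial
  refine ⟨fun s t => ?_⟩
  have h2 := h x 1 h1
  have h3 : ∀ s : St (R := An.hol X) N x, s = 0 := fun s => (one_smul _ s).symm.trans (h2 s)
  rw [h3 s, h3 t]

/-- The ideal `idealAt` extends locally. -/
theorem exists_section_of_mem {X : Scheme.{0}} [X.Over An.SC] (I : X.IdealSheafData) (y : An.top X)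
    (b : StO (An.hol X) y) (hb : b ∈ idealAt I y) :
    ∃ (V : Opens (An.top X)) (hV : y ∈ V) (b' : O (An.hol X) V), gmO (An.hol X) y V hV b' = b ∧
      ∀ y' (hy' : y' ∈ V), gmO (An.hol X) y' V hy' b' ∈ idealAt I y' := by
  obtain ⟨U, hU⟩ := exists_affine (An.Pts.pt y)
  rw [idealAt_eq I y U hU] at hb
  refine Submodule.span_induction (p := fun b _ => ∃ (V : Opens (An.top X)) (hV : y ∈ V)
    (b' : O (An.hol X) V), gmO (An.hol X) y V hV b' = b ∧
      ∀ y' (hy' : y' ∈ V), gmO (An.hol X) y' V hy' b' ∈ idealAt I y') ?_ ?_ ?_ ?_ hb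
  · rintro _ ⟨f, hf, rfl⟩
    refine ⟨(An.baseF X).obj U.1, hU, (An.toHolApp U.1).hom f, rfl, fun y' hy' => ?_⟩
    rw [idealAt_eq I y' U hy']
    exact Ideal.mem_map_of_mem (holGerm y' U.1 hy') hf
  · refine ⟨⊤, trivial, 0, map_zero _, fun y' hy' => ?_⟩
    rw [map_zero]; exact Ideal.zero_mem _
  · rintro a b - - ⟨V, hV, a', rfl, ha⟩ ⟨V', hV', b', rfl, hb⟩
    refine ⟨V ⊓ V', ⟨hV, hV'⟩, resO inf_le_left a' + resO inf_le_right b', ?_, fun y' hy' => ?_⟩
    · rw [map_add, gmO_resO, gmO_resO]
    · rw [map_add, gmO_resO, gmO_resO]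
      exact Ideal.add_mem _ (ha y' hy'.1) (hb y' hy'.2)
  · rintro a b - ⟨V', hV', b', rfl, hb⟩
    obtain ⟨V, hV, a', rfl⟩ := exists_gmO (R := An.hol X) y a
    refine ⟨V ⊓ V', ⟨hV, hV'⟩, resO inf_le_left a' * resO inf_le_right b', ?_, fun y' hy' => ?_⟩
    · rw [map_mul, gmO_resO, gmO_resO, smul_eq_mul]
    · rw [map_mul, gmO_resO, gmO_resO]
      exact Ideal.mul_mem_left _ _ (hb y' hy'.2)

theorem kills_quot {X : Scheme.{0}} [X.Over An.SC] [IsLocallyNoetherian X] (I : X.IdealSheafData)
    (N : An.AnMod X) : Kills I (quotMod (R := An.hol X) (N := N) (powFam I 1 N)) := by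
  intro x b hb t
  obtain ⟨t, rfl⟩ := stMap_quotπ_surjective (R := An.hol X) (N := N) (powFam I 1 N) x t
  rw [← map_smul, ← LinearMap.mem_ker, ker_stMap_quotπ (openFam_powFam I 1 N)]
  refine Submodule.smul_mem_smul ?_ trivial
  rw [pow_one]
  exact hb

/-- The direct image of a finitely presented sheaf killed by `I`, when `q` embeds `V(I)`. -/
theorem push_isFinitePresentation {E P : Scheme.{0}} [E.Over An.SC] [P.Over An.SC]
    [IsProper (E ↘ An.SC)] [LocallyOfFiniteType (P ↘ An.SC)] [IsSeparated (P ↘ An.SC)]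
    [IsReduced E] [IsReduced P] [IsLocallyNoetherian E] [IsLocallyNoetherian P]
    (q : E ⟶ P) [q.IsOver An.SC] [IsProper q] (I : E.IdealSheafData)
    (hinj : Set.InjOn q (I.support : Set E))
    (hs : ∀ z ∈ I.support, ∀ a : E.presheaf.stalk z, ∃ b : P.presheaf.stalk (q z),
        a - (q.stalkMap z).hom b ∈ stIdeal I z)
    (N : An.AnMod E) (hN : N.IsFinitePresentation) (hK : Kills I N) :
    ((An.anPushMap q).obj N).IsFinitePresentation := by
  obtain ⟨K, hK1, hK2⟩ := KerIdeal.exists_kernel_ideal q I hinj hs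
  rw [TM3.isFinitePresentation_iff] at hN
  refine (TM3.isFinitePresentation_iff (R := An.holRing P) _).2 fun x => ?_
  obtain ⟨W, hx, c, g, hg⟩ := exists_gens K 1 x
  simp only [pow_one] at hg
  have hcl : ∀ C : Set (An.top E), IsClosed C → IsClosed (An.topMap q '' (C ∩ suppPts I)) :=
    fun C hC => isClosed_image q _ (hC.inter (isClosed_suppPts I))
  refine Groth.Agent.Gaga.H217.FpPush.fpAt_push (R := An.hol P) (R1 := An.hol E) (An.anMapRingHom q)
    N (suppPts I) (isClosed_suppPts I) (fun y hy => suppIn_of_kills I N hK y hy) hcl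
    ?_ (fun y => idealAt I y) (fun y => hK y) (fun y => exists_section_of_mem I y) ?_ x W hx c g
    ?_ ?_ ?_ hN
  · intro y hy y' hy' h
    have h1 : (An.Pts.map q y).pt = (An.Pts.map q y').pt := congrArg An.Pts.pt h
    rw [An.Pts.pt_map, An.Pts.pt_map] at h1
    exact Groth.Agent.An.H871.Basic.pt_injective (hinj hy hy' h1)
  · intro y hy a
    exact hol_surjective_mod q I y (hs (An.Pts.pt y) hy) a
  · intro y hy hyW b hb
    rw [← hg]
    exact hol_kernel_mod q I K y (hs (An.Pts.pt y) hy) (fun b hb => (hK1 _ hy b).1 hb) b hb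
  · intro y hy hyW i
    refine anR_mem q K I y (fun b hb => (hK1 _ hy b).2 hb) _ ?_
    have h1 := hg (An.Pts.map q y) hyW
    rw [h1]
    exact Ideal.subset_span ⟨i, rfl⟩
  · intro x' hx' h
    rw [← hg x' hx']
    apply idealAt_eq_top
    intro hxK
    obtain ⟨z, hz, hzx⟩ := hK2 _ hxK
    obtain ⟨y, hyz, hyx⟩ := exists_lift q (I.support : Set E) I.support.isClosed x' z hz hzx
      (fun z' hz' h' => hinj hz' hz (by rw [h', hzx]))
    refine h y ?_ hyx
    change An.Pts.pt y ∈ I.support
    rw [hyz]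
    exact hz

section ThetaMap

open TensorProduct

variable {T T1 : TopCat.{0}} {f : T1 ⟶ T} {R : TopCat.Sheaf CommRingCat.{0} T}
  {R1 : TopCat.Sheaf CommRingCat.{0} T1}
  [(Opens.map f).IsContinuous (Opens.grothendieckTopology T) (Opens.grothendieckTopology T1)]
  {φ : ringSheaf R ⟶ ((Opens.map f).sheafPushforwardContinuous RingCat.{0}
    (Opens.grothendieckTopology T) (Opens.grothendieckTopology T1)).obj (ringSheaf R1)}
  {L : Mod R ⥤ Mod R1} (adj : L ⊣ push φ)

/-- On stalks the adjoint `M → f_* P` of `g : L M → P` is `g ∘ can`. -/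
theorem pushSt_homEquiv {M : Mod R} {P : Mod R1} (g : L.obj M ⟶ P) (y : T1) (t : St M (f y)) :
    pushSt φ P y (stMap (adj.homEquiv M P g) (f y) t) = stMap g y (can adj M y t) := by
  obtain ⟨V, hV, s, rfl⟩ := exists_gm M (f y) t
  rw [stMap_gm, pushSt_gm, can_gm, stMap_gm]
  congr 1

/-- [TH] on stalks. -/
theorem bijective_theta {M : Mod R} {P : Mod R1} (g : L.obj M ⟶ P) (y : T1) (J : Ideal (StO R1 y))
    (hs : ∀ a : StO R1 y, ∃ b : StO R (f y), a - stR φ y b ∈ J)
    (hk : ∀ b : StO R (f y), stR φ y b ∈ J → ∀ m : St M (f y), b • m = 0)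
    (hg : Function.Surjective (stMap g y))
    (hker : LinearMap.ker (stMap g y) = J • ⊤) (hp : Function.Bijective (pushSt φ P y)) :
    Function.Bijective (stMap (adj.homEquiv M P g) (f y)) := by
  let _ := stAlg φ y
  have h1 := Groth.Agent.Gaga.H940.ThetaBij.theta_bijective (R := StO R (f y)) (R1 := StO R1 y)
    (M := St M (f y)) J hs hk ((stMap g y).comp (stEquiv adj M y).toLinearMap)
    (hg.comp (stEquiv adj M y).surjective) (by
      rw [LinearMap.ker_comp, hker]
      ext t
      rw [Submodule.mem_comap]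
      constructor
      · intro h
        have h2 : (stEquiv adj M y).symm ((stEquiv adj M y) t) ∈
            Submodule.map (stEquiv adj M y).symm.toLinearMap (J • ⊤) := ⟨_, h, rfl⟩
        rw [LinearEquiv.symm_apply_apply, Submodule.map_smul''] at h2
        exact Submodule.smul_mono le_rfl le_top h2
      · intro h
        have h2 : (stEquiv adj M y) t ∈
            Submodule.map (stEquiv adj M y).toLinearMap (J • ⊤) := ⟨_, h, rfl⟩
        rw [Submodule.map_smul''] at h2
        exact Submodule.smul_mono le_rfl le_top h2)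
  have h2 : (fun m : St M (f y) => ((stMap g y).comp (stEquiv adj M y).toLinearMap)
      ((1 : StO R1 y) ⊗ₜ[StO R (f y)] m)) =
      fun m => pushSt φ P y (stMap (adj.homEquiv M P g) (f y) m) := by
    funext m
    rw [pushSt_homEquiv]
    change stMap g y (stEquiv adj M y _) = _
    rw [stEquiv_tmul, one_smul]
  rw [h2] at h1
  exact (Function.Bijective.of_comp_iff' hp _).1 h1

end ThetaMap

/-- [THETA] -/
theorem exists_theta {X E P : Scheme.{0}} [X.Over An.SC] [IsReduced X] [IsProper (X ↘ An.SC)]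
    [P.Over An.SC] [LocallyOfFiniteType (P ↘ An.SC)] [IsSeparated (P ↘ An.SC)] [IsReduced P]
    (hP : ∀ N : An.AnMod P, N.IsFinitePresentation → Alg N)
    [E.Over An.SC] [IsReduced E] (p : E ⟶ X) [p.IsOver An.SC] [IsProper p]
    (hPA : ∀ N' : An.AnMod E, Alg N' → Alg ((An.anPushMap p).obj N'))
    (q : E ⟶ P) [q.IsOver An.SC] [IsProper q]
    (I : X.IdealSheafData) (I' : E.IdealSheafData) (U : X.Opens)
    (h1 : ∀ z : E, ∀ b ∈ stIdeal I (p z), (p.stalkMap z).hom b ∈ stIdeal I' z)
    (h2 : Set.InjOn q (I'.support : Set E))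
    (h3 : ∀ z ∈ I'.support, ∀ a : E.presheaf.stalk z, ∃ b : P.presheaf.stalk (q z),
        a - (q.stalkMap z).hom b ∈ stIdeal I' z)
    (h4 : ∀ x ∈ U, x ∈ I.support → ∃ z ∈ I'.support, p z = x ∧ ∀ z' ∈ I'.support, p z' = x → z' = z)
    (h5 : ∀ z ∈ I'.support, p z ∈ U → (∀ a : E.presheaf.stalk z, ∃ b : X.presheaf.stalk (p z),
        a - (p.stalkMap z).hom b ∈ stIdeal I' z) ∧
        ∀ b : X.presheaf.stalk (p z), (p.stalkMap z).hom b ∈ stIdeal I' z → b ∈ stIdeal I (p z))
    (N : An.AnMod X) (hN : N.IsFinitePresentation) (hK : Kills I N) :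
    ∃ (P : An.AnMod X) (_ : Alg P) (θ : N ⟶ P), ∀ x : An.Pts X, ¬ (x.pt ∈ I.support ∧ x.pt ∉ U) →
      Function.Bijective (stMap (R := An.hol X) θ x) := by
  have hEover : E ↘ An.SC = p ≫ (X ↘ An.SC) := (comp_over p An.SC).symm
  have hEp : IsProper (E ↘ An.SC) := by rw [hEover]; infer_instance
  have hXn : IsLocallyNoetherian X := LocallyOfFiniteType.isLocallyNoetherian (X ↘ An.SC)
  have hEn : IsLocallyNoetherian E := LocallyOfFiniteType.isLocallyNoetherian (E ↘ An.SC)
  have hPn : IsLocallyNoetherian P := LocallyOfFiniteType.isLocallyNoetherian (P ↘ An.SC)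
  let L : An.AnMod X ⥤ An.AnMod E :=
    SheafOfModules.pullback (F := An.mapF p) (J := An.JA X) (K := An.JA E) (An.anMapRingHom p)
  let adj : L ⊣ An.anPushMap p :=
    SheafOfModules.pullbackPushforwardAdjunction (F := An.mapF p) (J := An.JA X) (K := An.JA E)
      (An.anMapRingHom p)
  have hN1 : (L.obj N).IsFinitePresentation :=
    FPC.isFinitePresentation_pull (R := An.hol X) (R1 := An.hol E) adj hN
  let N' : An.AnMod E := quotMod (R := An.hol E) (N := L.obj N) (powFam I' 1 (L.obj N))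
  let π : L.obj N ⟶ N' := quotπ (R := An.hol E) (N := L.obj N) (powFam I' 1 (L.obj N))
  have hN' : N'.IsFinitePresentation := quot_isFinitePresentation I' 1 _ hN1
  have hK' : Kills I' N' := kills_quot I' (L.obj N)
  have hclq : ∀ C : Set (An.top E), IsClosed C → IsClosed (An.topMap q '' C) :=
    fun C hC => isClosed_image q C hC
  have hN'alg : Alg N' := alg_of_alg_push q I' hclq h2 h3 N' hK'
    (hP _ (push_isFinitePresentation q I' h2 h3 N' hN' hK'))
  refine ⟨(An.anPushMap p).obj N', hPA N' hN'alg, adj.homEquiv N N' π, ?_⟩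
  intro x hx
  have hcl : ∀ C : Set (An.top E), IsClosed C → IsClosed (An.topMap p '' (C ∩ suppPts I')) :=
    fun C hC => isClosed_image p _ (hC.inter (isClosed_suppPts I'))
  have hsub : ∀ y : An.top E, y ∉ suppPts I' → Subsingleton (St (R := An.hol E) N' y) :=
    fun y hy => suppIn_of_kills I' N' hK' y hy
  by_cases hxI : x.pt ∈ I.support
  · have hxU : x.pt ∈ U := by
      by_contra h
      exact hx ⟨hxI, h⟩
    obtain ⟨z, hz, hzx, hzu⟩ := h4 x.pt hxU hxI
    obtain ⟨y, hyz, rfl⟩ := exists_lift p (I'.support : Set E) I'.support.isClosed x z hz hzx hzu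
    have hy : An.Pts.pt y ∈ I'.support := by rw [hyz]; exact hz
    have hyU : p (An.Pts.pt y) ∈ U := by rw [← An.Pts.pt_map]; exact hxU
    have h5' := h5 _ hy hyU
    have hp : Function.Bijective (pushSt (R := An.hol X) (R1 := An.hol E) (An.anMapRingHom p) N' y) := by
      refine Groth.Agent.Gaga.H127.PushStalk.pushSt_bijective (R := An.hol X) (R1 := An.hol E)
        (An.anMapRingHom p) N' (suppPts I') (isClosed_suppPts I') hsub hcl y ?_
      intro y' hy' h
      apply Groth.Agent.An.H871.Basic.pt_injective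
      rw [hyz]
      refine hzu _ hy' ?_
      have := congrArg An.Pts.pt h
      rw [← An.Pts.pt_map]
      exact this
    exact bijective_theta (R := An.hol X) (R1 := An.hol E) adj π y (idealAt I' y)
      (fun a => hol_surjective_mod p I' y h5'.1 a)
      (fun b hb m => hK _ _ (hol_kernel_mod p I' I y h5'.1 h5'.2 b hb) m)
      (stMap_quotπ_surjective (R := An.hol E) (N := L.obj N) (powFam I' 1 (L.obj N)) y)
      (by
        rw [ker_stMap_quotπ (openFam_powFam I' 1 (L.obj N))]
        change idealAt I' _ ^ 1 • ⊤ = _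
        rw [pow_one]) hp
  · have e1 : Subsingleton (St (R := An.hol X) N x) := suppIn_of_kills I N hK x hxI
    have e2 : Subsingleton (St (R := An.hol X) ((An.anPushMap p).obj N') x) := by
      refine Groth.Agent.Gaga.H127.PushStalk.push_stalk_subsingleton (R := An.hol X)
        (R1 := An.hol E) (An.anMapRingHom p) N' (suppPts I') hsub hcl x ?_
      intro y hy h
      apply hxI
      have h6 : p (An.Pts.pt y) ∈ I.support := by
        by_contra h7
        rw [← stIdeal_eq_top_iff] at h7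
        have h8 := h1 (An.Pts.pt y) 1 (by rw [h7]; trivial)
        rw [map_one, ← Ideal.eq_top_iff_one, stIdeal_eq_top_iff] at h8
        exact h8 hy
      rw [← An.Pts.pt_map] at h6
      have h9 : An.Pts.map p y = x := h
      rw [h9] at h6
      exact h6
    exact ⟨fun a b _ => e1.elim a b, fun b => ⟨0, e2.elim _ _⟩⟩

end Groth.Agent.Gaga.H976.Theta
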